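import Mathlib
import Cfsg.Agent.Lib.PGroupCoprimeAction
import Cfsg.Agent.H587.OrbitWeights
set_option linter.all false

-- part: H587/CubicA
section
/-!
# S4415, part A: an element of order three with one nontrivial Jordan block

`CS ρ R b`: `G = R⟨b⟩`, `b³ = 1`, `R = [R, ⟨b⟩]` a normal solvable `3'`-subgroup, `ρ` a faithful representation of
`G` over the field with three elements, with `im (ρ b - 1)` of dimension two.
`FG b t`: `t`, `t^b`, `t^(b²)` are the involutions of a four-group.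
-/

set_option autoImplicit false
set_option linter.unusedSectionVars false

namespace Cfsg.Agent.H587.Cubic

open Module
open scoped commutatorElement

theorem two_smul_inj {E : Type*} [AddCommGroup E] [Module (ZMod 3) E] {v : E} (h : v + v = 0) : v = 0 := by
  have h1 : (3 : ZMod 3) • v = 0 := by
    have : (3 : ZMod 3) = 0 := rfl
    rw [this, zero_smul]
  have h2 : (3 : ZMod 3) • v = v + v + v := by
    have : (3 : ZMod 3) = 1 + 1 + 1 := rfl
    rw [this, add_smul, add_smul, one_smul]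
  rw [h2, h, zero_add] at h1
  exact h1

section

variable {G : Type*} [Group G] {E : Type*} [AddCommGroup E] [Module (ZMod 3) E]

/-- The commutator space `im (ρ b - 1)`. -/
def dd (ρ : Representation (ZMod 3) G E) (b : G) : Submodule (ZMod 3) E := LinearMap.range (ρ b - 1)

theorem mem_dd {ρ : Representation (ZMod 3) G E} {b : G} {v : E} : v ∈ dd ρ b ↔ ∃ u, ρ b u - u = v := by
  unfold dd
  rw [LinearMap.mem_range]
  rfl

theorem sub_mem_dd (ρ : Representation (ZMod 3) G E) (b : G) (u : E) : ρ b u - u ∈ dd ρ b :=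
  mem_dd.mpr ⟨u, rfl⟩

/-- The setting. -/
structure CS (ρ : Representation (ZMod 3) G E) (R : Subgroup G) (b : G) : Prop where
  faith : ∀ g : G, (∀ v, ρ g v = v) → g = 1
  nor : R.Normal
  b3 : b * b * b = 1
  gen : R ⊔ Subgroup.zpowers b = ⊤
  comm : ⁅R, Subgroup.zpowers b⁆ = R
  r3 : ¬ 3 ∣ Nat.card R
  sol : Group.IsSolvable R
  dim : finrank (ZMod 3) (dd ρ b) = 2

variable {ρ : Representation (ZMod 3) G E} {R : Subgroup G} {b : G}

theorem rho_mul (ρ : Representation (ZMod 3) G E) (g h : G) (v : E) : ρ (g * h) v = ρ g (ρ h v) := by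
  rw [map_mul]; rfl

theorem rho_one (ρ : Representation (ZMod 3) G E) (v : E) : ρ 1 v = v := by
  rw [map_one]; rfl

/-- A normal subgroup containing `b` is everything. -/
theorem CS.eq_top (h : CS ρ R b) {N : Subgroup G} (hN : N.Normal) (hb : b ∈ N) : N = ⊤ := by
  rw [eq_top_iff, ← h.gen, sup_le_iff]
  have hz : Subgroup.zpowers b ≤ N := by rw [Subgroup.zpowers_le]; exact hb
  refine ⟨?_, hz⟩
  rw [← h.comm, Subgroup.commutator_le]
  intro r _ c hc
  rw [commutatorElement_def]
  exact N.mul_mem (hN.conj_mem c (hz hc) r) (N.inv_mem (hz hc))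

/-- `b` acts trivially on an invariant subspace: then everything does. -/
theorem CS.trivial_on (h : CS ρ R b) (W : Submodule (ZMod 3) E) (hW : ∀ g : G, ∀ w ∈ W, ρ g w ∈ W)
    (hb : ∀ w ∈ W, ρ b w = w) : ∀ g : G, ∀ w ∈ W, ρ g w = w := by
  let K : Subgroup G :=
    { carrier := {g | ∀ w ∈ W, ρ g w = w}
      one_mem' := fun w _ => rho_one ρ w
      mul_mem' := by
        intro a c ha hc w hw
        rw [rho_mul, hc w hw, ha w hw]
      inv_mem' := by
        intro a ha w hw
        have h1 := ha _ (hW a⁻¹ w hw)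
        rw [← rho_mul, mul_inv_cancel, rho_one] at h1
        exact h1.symm }
  have hK : K.Normal := by
    constructor
    intro n hn g w hw
    rw [rho_mul, rho_mul, hn _ (hW g⁻¹ w hw), ← rho_mul, mul_inv_cancel, rho_one]
  have h1 := h.eq_top hK hb
  intro g
  have : g ∈ K := by rw [h1]; trivial
  exact this

/-- `b` centralizes a normal subgroup: then everything does. -/
theorem CS.central (h : CS ρ R b) {M : Subgroup G} (hM : M.Normal) (hb : ∀ m ∈ M, b * m = m * b) :
    ∀ g : G, ∀ m ∈ M, g * m = m * g := by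
  have hn : (Subgroup.centralizer (M : Set G)).Normal := by
    constructor
    intro n hn g
    rw [Subgroup.mem_centralizer_iff] at hn ⊢
    intro m hm
    have h1 := hn _ (hM.conj_mem m hm g⁻¹)
    rw [inv_inv] at h1
    calc m * (g * n * g⁻¹) = g * (g⁻¹ * m * g * n) * g⁻¹ := by group
      _ = g * (n * (g⁻¹ * m * g)) * g⁻¹ := by rw [h1]
      _ = g * n * g⁻¹ * m := by group
  have h1 := h.eq_top hn (by
    rw [Subgroup.mem_centralizer_iff]
    intro m hm
    exact (hb m hm).symm)
  intro g m hm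
  have h2 : g ∈ Subgroup.centralizer (M : Set G) := by rw [h1]; trivial
  exact (Subgroup.mem_centralizer_iff.mp h2 m hm).symm

theorem CS.b_ne (h : CS ρ R b) : b ≠ 1 := by
  rintro rfl
  have h1 := h.dim
  have h2 : dd ρ (1 : G) = ⊥ := by
    rw [eq_bot_iff]
    intro v hv
    obtain ⟨u, rfl⟩ := mem_dd.mp hv
    rw [rho_one, sub_self]
    exact Submodule.zero_mem _
  rw [h2, finrank_bot] at h1
  exact absurd h1 (by norm_num)

theorem CS.rho_b3 (h : CS ρ R b) (v : E) : ρ b (ρ b (ρ b v)) = v := by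
  rw [← rho_mul, ← rho_mul, h.b3, rho_one]

/-- Three independent subspaces permuted by `b` have dimension at most one. -/
theorem CS.three (h : CS ρ R b) [FiniteDimensional (ZMod 3) E] (U : Submodule (ZMod 3) E)
    (hind : ∀ u ∈ U, ∀ v ∈ U, ∀ w ∈ U, u + ρ b v + ρ b (ρ b w) = 0 → u = 0 ∧ v = 0 ∧ w = 0) :
    finrank (ZMod 3) U ≤ 1 := by
  let f : U × U →ₗ[ZMod 3] dd ρ b :=
    { toFun := fun p => ⟨(ρ b p.1 - p.1) + (ρ b (ρ b p.2) - ρ b p.2),
        add_mem (sub_mem_dd ρ b _) (sub_mem_dd ρ b _)⟩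
      map_add' := by
        intro p q
        apply Subtype.ext
        simp only [Prod.fst_add, Prod.snd_add, Submodule.coe_add, map_add]
        abel
      map_smul' := by
        intro c p
        apply Subtype.ext
        simp only [Prod.smul_fst, Prod.smul_snd, Submodule.coe_smul, map_smul, RingHom.id_apply]
        rw [smul_add, smul_sub, smul_sub] }
  have hf : Function.Injective f := by
    rw [injective_iff_map_eq_zero]
    rintro ⟨u, v⟩ huv
    have h1 : (ρ b u - u : E) + (ρ b (ρ b v) - ρ b v) = 0 := congrArg Subtype.val huv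
    have h2 : (-(u : E)) + ρ b ((u : E) - v) + ρ b (ρ b (v : E)) = 0 := by
      rw [map_sub, ← h1]; abel
    obtain ⟨h3, -, h4⟩ := hind (-(u : E)) (neg_mem u.2) ((u : E) - v) (sub_mem u.2 v.2) v v.2 h2
    have h5 : u = 0 := Subtype.ext (neg_eq_zero.mp h3)
    have h6 : v = 0 := Subtype.ext h4
    rw [h5, h6]; rfl
  have h1 := LinearMap.finrank_le_finrank_of_injective hf
  rw [Module.finrank_prod, h.dim] at h1
  omega

/-- If such subspaces are nonzero, they contain the commutator space in their sum. -/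
theorem CS.dd_le (h : CS ρ R b) [FiniteDimensional (ZMod 3) E] (u : E)
    (hind : ∀ c d e : ZMod 3, c • u + d • ρ b u + e • ρ b (ρ b u) = 0 → c = 0 ∧ d = 0 ∧ e = 0) :
    ∀ v ∈ dd ρ b, ∃ c d e : ZMod 3, v = c • u + d • ρ b u + e • ρ b (ρ b u) := by
  have hli : LinearIndependent (ZMod 3) ![ρ b u - u, ρ b (ρ b u) - ρ b u] := by
    rw [LinearIndependent.pair_iff]
    intro s t hst
    have h1 : (-s) • u + (s - t) • ρ b u + t • ρ b (ρ b u) = 0 := by
      rw [← hst, smul_sub, smul_sub, sub_smul, neg_smul]; abel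
    obtain ⟨h2, -, h4⟩ := hind _ _ _ h1
    exact ⟨neg_eq_zero.mp h2, h4⟩
  have hspan : Submodule.span (ZMod 3) (Set.range ![ρ b u - u, ρ b (ρ b u) - ρ b u]) = dd ρ b := by
    apply Submodule.eq_of_le_of_finrank_eq
    · rw [Submodule.span_le]
      rintro _ ⟨i, rfl⟩
      fin_cases i
      · exact sub_mem_dd ρ b _
      · exact sub_mem_dd ρ b _
    · rw [finrank_span_eq_card hli, h.dim]
      rfl
  intro v hv
  rw [← hspan, Submodule.mem_span_range_iff_exists_fun] at hv
  obtain ⟨c, hc⟩ := hv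
  refine ⟨-c 0, c 0 - c 1, c 1, ?_⟩
  rw [← hc, Fin.sum_univ_two]
  simp only [Matrix.cons_val_zero, Matrix.cons_val_one]
  rw [smul_sub, smul_sub, sub_smul, neg_smul]
  abel

end

end Cfsg.Agent.H587.Cubic
end

-- part: H587/CubicB
section
/-!
# S4415, part B: four-groups permuted by `b` and their lines
-/

set_option autoImplicit false
set_option linter.unusedSectionVars false
set_option linter.unusedVariables false

namespace Cfsg.Agent.H587.Cubic

open Module
open scoped commutatorElement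

section

variable {G : Type*} [Group G]

/-- Conjugation. -/
def cj (b x : G) : G := b * x * b⁻¹

theorem cj_mul (b x y : G) : cj b (x * y) = cj b x * cj b y := by unfold cj; group
theorem cj_one (b : G) : cj b 1 = 1 := by unfold cj; group
theorem cj_inv (b x : G) : cj b x⁻¹ = (cj b x)⁻¹ := by unfold cj; group
theorem cj_inj {b x y : G} (h : cj b x = cj b y) : x = y := by
  unfold cj at h
  exact mul_left_cancel (mul_right_cancel h)
theorem cj_cj (b c x : G) : cj b (cj c x) = cj (b * c) x := by unfold cj; group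
theorem cj_three {b : G} (hb : b * b * b = 1) (x : G) : cj b (cj b (cj b x)) = x := by
  rw [cj_cj, cj_cj, hb]; unfold cj; group
theorem mul_eq_cj (b x : G) : b * x = cj b x * b := by unfold cj; group
theorem cj_mem {R : Subgroup G} (hR : R.Normal) (b : G) {x : G} (hx : x ∈ R) : cj b x ∈ R :=
  hR.conj_mem x hx b

/-- `t`, `t^b`, `t^(b²)` are the involutions of a four-group. -/
structure FG (b t : G) : Prop where
  ne : t ≠ 1
  sq : t * t = 1
  prod : t * cj b t * cj b (cj b t) = 1

variable {b t : G}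

theorem FG.next (h : FG b t) (hb : b * b * b = 1) : FG b (cj b t) where
  ne := fun h0 => h.ne (cj_inj (h0.trans (cj_one b).symm))
  sq := by rw [← cj_mul, h.sq, cj_one]
  prod := by
    have h1 := congrArg (cj b) h.prod
    rw [cj_mul, cj_mul, cj_one] at h1
    exact h1

theorem FG.inv_eq (h : FG b t) : t⁻¹ = t := inv_eq_of_mul_eq_one_left h.sq

theorem FG.mul_eq (h : FG b t) (hb : b * b * b = 1) : t * cj b t = cj b (cj b t) := by
  have h1 := h.prod
  have h2 := ((h.next hb).next hb).inv_eq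
  rw [mul_eq_one_iff_eq_inv, h2] at h1
  exact h1

theorem FG.comm12 (h : FG b t) (hb : b * b * b = 1) : t * cj b t = cj b t * t := by
  have h1 := h.mul_eq hb
  have h2 := ((h.next hb).next hb).sq
  have h3 := (h.next hb).sq
  rw [← h1] at h2
  calc t * cj b t = t * cj b t * (t * cj b t * (t * cj b t)) := by rw [h2, mul_one]
    _ = (t * cj b t * (t * cj b t)) * (t * cj b t) := by group
    _ = t * cj b t := by rw [h2, one_mul]
    _ = (cj b t * t)⁻¹ * ((cj b t * t) * (t * cj b t)) := by group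
    _ = (cj b t * t)⁻¹ * 1 := by
        congr 1
        calc cj b t * t * (t * cj b t) = cj b t * (t * t) * cj b t := by group
          _ = 1 := by rw [h.sq, mul_one, h3]
    _ = t⁻¹ * (cj b t)⁻¹ := by group
    _ = cj b t * t := by
        have h4 : (cj b t * t) * (t⁻¹ * (cj b t)⁻¹)= 1 := by group
        have h5 : t⁻¹ * (cj b t)⁻¹ = t * cj b t := by rw [h.inv_eq, (h.next hb).inv_eq]
        rw [h5]
        calc t * cj b t = (cj b t * t) * (cj b t * t)⁻¹ * (t * cj b t) := by group
          _ = (cj b t * t) * (t⁻¹ * (cj b t)⁻¹ * (t * cj b t)) := by group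
          _ = (cj b t * t) * 1 := by rw [h5, h2]
          _ = cj b t * t := mul_one _

theorem FG.ne12 (h : FG b t) (hb : b * b * b = 1) : cj b t ≠ t := by
  intro h0
  have h1 := h.prod
  rw [h0, h0, h.sq, one_mul] at h1
  exact h.ne h1

theorem FG.mul23 (h : FG b t) (hb : b * b * b = 1) : cj b t * cj b (cj b t) = t := by
  have h1 := (h.next hb).mul_eq hb
  rw [cj_three hb] at h1
  exact h1

theorem FG.mul31 (h : FG b t) (hb : b * b * b = 1) : cj b (cj b t) * t = cj b t := by
  have h1 := ((h.next hb).next hb).mul_eq hb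
  rw [cj_three hb] at h1
  exact h1

end

section

variable {G : Type*} [Group G] {E : Type*} [AddCommGroup E] [Module (ZMod 3) E]

/-- The common eigenspace: `s = 1`, `u = -1`. -/
def ln (ρ : Representation (ZMod 3) G E) (s u : G) : Submodule (ZMod 3) E where
  carrier := {v | ρ s v = v ∧ ρ u v = -v}
  zero_mem' := by constructor <;> simp
  add_mem' := by
    rintro a c ⟨h1, h2⟩ ⟨h3, h4⟩
    constructor
    · rw [map_add, h1, h3]
    · rw [map_add, h2, h4]; abel
  smul_mem' := by
    rintro a c ⟨h1, h2⟩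
    constructor
    · rw [map_smul, h1]
    · rw [map_smul, h2, smul_neg]

theorem mem_ln {ρ : Representation (ZMod 3) G E} {s u : G} {v : E} :
    v ∈ ln ρ s u ↔ ρ s v = v ∧ ρ u v = -v := Iff.rfl

theorem ln_cj {ρ : Representation (ZMod 3) G E} {s u : G} (g : G) {v : E} (hv : v ∈ ln ρ s u) :
    ρ g v ∈ ln ρ (cj g s) (cj g u) := by
  obtain ⟨h1, h2⟩ := hv
  constructor
  · rw [← rho_mul]
    have : cj g s * g = g * s := by unfold cj; group
    rw [this, rho_mul, h1]
  · rw [← rho_mul]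
    have : cj g u * g = g * u := by unfold cj; group
    rw [this, rho_mul, h2, map_neg]

/-- The line of a four-group: `t = 1`, `t^b = -1`. -/
abbrev l1 (ρ : Representation (ZMod 3) G E) (b t : G) : Submodule (ZMod 3) E := ln ρ t (cj b t)

variable {ρ : Representation (ZMod 3) G E} {R : Subgroup G} {b t : G}

/-- All values on the first line. -/
theorem FG.vals (h : FG b t) (hb : b * b * b = 1) {v : E} (hv : v ∈ l1 ρ b t) :
    ρ t v = v ∧ ρ (cj b t) v = -v ∧ ρ (cj b (cj b t)) v = -v := by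
  obtain ⟨h1, h2⟩ := hv
  refine ⟨h1, h2, ?_⟩
  rw [← h.mul_eq hb, rho_mul, h2, map_neg, h1]

/-- Values on the second line. -/
theorem FG.vals2 (h : FG b t) (hb : b * b * b = 1) {v : E} (hv : v ∈ l1 ρ b t) :
    ρ t (ρ b v) = -(ρ b v) ∧ ρ (cj b t) (ρ b v) = ρ b v ∧ ρ (cj b (cj b t)) (ρ b v) = -(ρ b v) := by
  have h1 := (h.next hb).vals hb (v := ρ b v) (ln_cj b hv)
  rw [cj_three hb] at h1
  exact ⟨h1.2.2, h1.1, h1.2.1⟩

/-- Values on the third line. -/
theorem FG.vals3 (h : FG b t) (hb : b * b * b = 1) {v : E} (hv : v ∈ l1 ρ b t) :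
    ρ t (ρ b (ρ b v)) = -(ρ b (ρ b v)) ∧ ρ (cj b t) (ρ b (ρ b v)) = -(ρ b (ρ b v)) ∧
      ρ (cj b (cj b t)) (ρ b (ρ b v)) = ρ b (ρ b v) := by
  have h1 := (h.next hb).vals2 hb (v := ρ b v) (ln_cj b hv)
  rw [cj_three hb] at h1
  exact ⟨h1.2.2, h1.1, h1.2.1⟩

theorem eq_zero_of_neg {v : E} (h : v = -v) : v = 0 := by
  apply two_smul_inj
  nth_rewrite 1 [h]
  abel

/-- The three lines are independent. -/
theorem FG.indep (h : FG b t) (hb : b * b * b = 1) {u v w : E} (hu : u ∈ l1 ρ b t) (hv : v ∈ l1 ρ b t)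
    (hw : w ∈ l1 ρ b t) (h0 : u + ρ b v + ρ b (ρ b w) = 0) : u = 0 ∧ v = 0 ∧ w = 0 := by
  have e1 := congrArg (ρ t) h0
  rw [map_add, map_add, map_zero, (h.vals hb hu).1, (h.vals2 hb hv).1, (h.vals3 hb hw).1] at e1
  have e2 := congrArg (ρ (cj b t)) h0
  rw [map_add, map_add, map_zero, (h.vals hb hu).2.1, (h.vals2 hb hv).2.1, (h.vals3 hb hw).2.1] at e2
  have hu0 : u = 0 := by
    apply two_smul_inj
    calc u + u = (u + ρ b v + ρ b (ρ b w)) + (u + -(ρ b v) + -(ρ b (ρ b w))) := by abel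
      _ = 0 := by rw [h0, e1, add_zero]
  have hv0 : ρ b v = 0 := by
    apply two_smul_inj
    calc ρ b v + ρ b v = (u + ρ b v + ρ b (ρ b w)) + (-u + (ρ b v) + -(ρ b (ρ b w))) := by abel
      _ = 0 := by rw [h0, e2, add_zero]
  have hw0 : ρ b (ρ b w) = 0 := by
    rw [hu0, hv0, zero_add, zero_add] at h0
    exact h0
  have hinj : ∀ x : E, ρ b x = 0 → x = 0 := by
    intro x hx
    have := ρ.inv_self_apply b x
    rw [hx, map_zero] at this
    exact this.symm
  exact ⟨hu0, hinj v hv0, hinj w (hinj _ hw0)⟩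

variable [Finite E]

/-- The first line is not zero, if `ρ` is faithful. -/
theorem FG.exists_ne (h : FG b t) (hb : b * b * b = 1) (hf : ∀ g : G, (∀ v, ρ g v = v) → g = 1) :
    ∃ e ∈ l1 ρ b t, e ≠ 0 := by
  by_contra hcon
  push Not at hcon
  -- then every `-1`-eigenspace is trivial
  apply h.ne
  apply hf
  intro v
  have key : ∀ (s : G), FG b s → (∀ x ∈ l1 ρ b s, x = 0) → ∀ w, ρ (cj b (cj b s)) w = -w → ρ s w = -w := by
    intro s hs hl w hw
    have h1 : w + ρ s w ∈ l1 ρ b s := by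
      constructor
      · rw [map_add, ← rho_mul, hs.sq, rho_one, add_comm]
      · have h2 : ρ (cj b s) w = -(ρ s w) := by
          have h3 : cj b s = s * cj b (cj b s) := by
            rw [← hs.mul_eq hb, ← mul_assoc, hs.sq, one_mul]
          calc ρ (cj b s) w = ρ (s * cj b (cj b s)) w := by rw [← h3]
            _ = -(ρ s w) := by rw [rho_mul, hw, map_neg]
        have h4 : ρ (cj b s) (ρ s w) = -w := by
          rw [← rho_mul, ← hs.comm12 hb, hs.mul_eq hb, hw]
        rw [map_add, h2, h4]; abel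
    have h2 := hl _ h1
    exact (neg_eq_of_add_eq_zero_right h2).symm
  have hnext : ∀ s : G, (∀ x ∈ l1 ρ b s, x = 0) → ∀ x ∈ l1 ρ b (cj b s), x = 0 := by
    intro s hs x hx
    have h1 := ln_cj (ρ := ρ) (b * b) hx
    have h2 : ∀ y, cj (b * b) (cj b y) = y := by
      intro y
      rw [cj_cj, hb]; unfold cj; group
    rw [h2, h2] at h1
    have h3 := hs _ h1
    rw [rho_mul] at h3
    have hinj : ∀ x : E, ρ b x = 0 → x = 0 := by
      intro x hx
      have := ρ.inv_self_apply b x
      rw [hx, map_zero] at this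
      exact this.symm
    exact hinj _ (hinj _ h3)
  -- let `w` be a `-1`-eigenvector of `t`
  have h1 : ∀ w, ρ t w = -w → w = 0 := by
    intro w hw
    -- `t = cj b (cj b (cj b t))`
    have a1 := key (cj b t) (h.next hb) (hnext t hcon) w (by rw [cj_three hb]; exact hw)
    have a2 := key (cj b (cj b t)) ((h.next hb).next hb) (hnext _ (hnext t hcon)) w
      (by rw [cj_three hb]; exact a1)
    have a3 := h.mul23 hb
    rw [← a3, rho_mul, a2, map_neg, a1, neg_neg] at hw
    exact eq_zero_of_neg hw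
  have h2 := h1 (v - ρ t v) (by
    rw [map_sub, ← rho_mul, h.sq, rho_one]; abel)
  exact (sub_eq_zero.mp h2).symm

end

end Cfsg.Agent.H587.Cubic
end

-- part: H587/CubicC
section
/-!
# S4415, part C: lines are one-dimensional; central elements of `R`
-/

set_option autoImplicit false
set_option linter.unusedSectionVars false
set_option linter.unusedVariables false

namespace Cfsg.Agent.H587.Cubic

open Module
open scoped commutatorElement

variable {G : Type*} [Group G] {E : Type*} [AddCommGroup E] [Module (ZMod 3) E] [Finite E]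
variable {ρ : Representation (ZMod 3) G E} {R : Subgroup G} {b t : G}

theorem zmod3_cases (k : ZMod 3) : k = 0 ∨ k = 1 ∨ k = -1 := by
  revert k; decide

theorem CS.exists_line (h : CS ρ R b) (hq : FG b t) : ∃ e ∈ l1 ρ b t, e ≠ 0 :=
  hq.exists_ne h.b3 h.faith

theorem CS.line (h : CS ρ R b) (hq : FG b t) {e : E} (he : e ∈ l1 ρ b t) (he0 : e ≠ 0) {v : E}
    (hv : v ∈ l1 ρ b t) : ∃ c : ZMod 3, v = c • e := by
  have hfd : FiniteDimensional (ZMod 3) E := Module.Finite.of_finite
  have h1 := h.three (l1 ρ b t) (fun u hu v hv w hw h0 => hq.indep h.b3 hu hv hw h0)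
  have h2 : finrank (ZMod 3) (l1 ρ b t) = 1 := by
    apply le_antisymm h1
    have hnt : Nontrivial (l1 ρ b t) := ⟨⟨⟨e, he⟩, 0, fun h => he0 (congrArg Subtype.val h)⟩⟩
    exact Module.finrank_pos
  obtain ⟨c, hc⟩ := (finrank_eq_one_iff_of_nonzero' (⟨e, he⟩ : l1 ρ b t)
    (fun h => he0 (congrArg Subtype.val h))).mp h2 ⟨v, hv⟩
  exact ⟨c, (congrArg Subtype.val hc).symm⟩

theorem CS.dd_line (h : CS ρ R b) (hq : FG b t) {e : E} (he : e ∈ l1 ρ b t) (he0 : e ≠ 0) :
    ∀ v ∈ dd ρ b, ∃ c d f : ZMod 3, v = c • e + d • ρ b e + f • ρ b (ρ b e) := by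
  have hfd : FiniteDimensional (ZMod 3) E := Module.Finite.of_finite
  apply h.dd_le
  intro c d f h0
  have h1 : c • e + ρ b (d • e) + ρ b (ρ b (f • e)) = 0 := by
    rw [map_smul, map_smul, map_smul]; exact h0
  obtain ⟨h2, h3, h4⟩ := hq.indep h.b3 (Submodule.smul_mem _ c he) (Submodule.smul_mem _ d he)
    (Submodule.smul_mem _ f he) h1
  exact ⟨(smul_eq_zero.mp h2).resolve_right he0, (smul_eq_zero.mp h3).resolve_right he0,
    (smul_eq_zero.mp h4).resolve_right he0⟩

/-- A normal subgroup of `R` acting trivially on the line is trivial. -/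
theorem CS.triv_of_line [Finite G] (h : CS ρ R b) (hq : FG b t) {e : E} (he : e ∈ l1 ρ b t)
    (he0 : e ≠ 0) (M : Subgroup G) (hM : M.Normal) (hMR : M ≤ R) (hMe : ∀ m ∈ M, ρ m e = e) :
    M = ⊥ := by
  classical
  have := Fintype.ofFinite M
  have hcard : (Nat.card M : ZMod 3) ≠ 0 := by
    intro h0
    rw [ZMod.natCast_eq_zero_iff] at h0
    exact h.r3 (h0.trans (Subgroup.card_dvd_of_le hMR))
  -- `M` acts trivially on the commutator space
  have hMb : ∀ (v : E), (∀ m ∈ M, ρ m v = v) → ∀ m ∈ M, ρ m (ρ b v) = ρ b v := by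
    intro v hv m hm
    have h1 : m * b = b * (b⁻¹ * m * b) := by group
    have h2 : b⁻¹ * m * b ∈ M := by
      have := hM.conj_mem m hm b⁻¹
      rwa [inv_inv] at this
    rw [← rho_mul, h1, rho_mul, hv _ h2]
  have hMdd : ∀ v ∈ dd ρ b, ∀ m ∈ M, ρ m v = v := by
    intro v hv m hm
    obtain ⟨c, d, f, rfl⟩ := h.dd_line hq he he0 v hv
    rw [map_add, map_add, map_smul, map_smul, map_smul, hMe m hm, hMb _ hMe m hm,
      hMb _ (hMb _ hMe) m hm]
  have hsumfix : ∀ v : E, (∀ m ∈ M, ρ m v = v) → ∑ m : M, ρ (m : G) v = (Nat.card M : ZMod 3) • v := by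
    intro v hv
    rw [Finset.sum_congr rfl (fun m _ => hv m.1 m.2), Finset.sum_const, Finset.card_univ,
      Nat.card_eq_fintype_card, Nat.cast_smul_eq_nsmul]
  let W : Submodule (ZMod 3) E :=
    { carrier := {w | ∑ m : M, ρ (m : G) w = 0}
      zero_mem' := by
        show ∑ m : M, ρ (m : G) (0 : E) = 0
        simp
      add_mem' := by
        intro a c ha hc
        show ∑ m : M, ρ (m : G) (a + c) = 0
        have ha' : ∑ m : M, ρ (m : G) a = 0 := ha
        have hc' : ∑ m : M, ρ (m : G) c = 0 := hc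
        simp only [map_add]
        rw [Finset.sum_add_distrib, ha', hc', add_zero]
      smul_mem' := by
        intro k a ha
        show ∑ m : M, ρ (m : G) (k • a) = 0
        have ha' : ∑ m : M, ρ (m : G) a = 0 := ha
        simp only [map_smul]
        rw [← Finset.smul_sum, ha', smul_zero] }
  have hW : ∀ w, w ∈ W ↔ ∑ m : M, ρ (m : G) w = 0 := fun w => Iff.rfl
  have hWinv : ∀ g : G, ∀ w ∈ W, ρ g w ∈ W := by
    intro g w hw
    rw [hW] at hw ⊢
    have h1 : ∑ m : M, ρ (m : G) (ρ g w) = ρ g (∑ m : M, ρ (m : G) w) := by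
      rw [map_sum]
      symm
      apply Fintype.sum_equiv (MulAut.conjNormal (H := M) g).toEquiv
      intro m
      rw [← rho_mul, ← rho_mul]
      congr 2
      show g * (m : G) = ((MulAut.conjNormal g m : M) : G) * g
      rw [MulAut.conjNormal_apply]; group
    rw [h1, hw, map_zero]
  have hbW : ∀ w ∈ W, ρ b w = w := by
    intro w hw
    have h1 := hMdd _ (sub_mem_dd ρ b w)
    have h2 := hsumfix _ h1
    have h3 : ρ b w - w ∈ W := W.sub_mem (hWinv b w hw) hw
    rw [hW, h2] at h3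
    exact sub_eq_zero.mp ((smul_eq_zero.mp h3).resolve_left hcard)
  have htriv := h.trivial_on W hWinv hbW
  have hW0 : ∀ w ∈ W, w = 0 := by
    intro w hw
    have h1 := hsumfix w (fun m _ => htriv m w hw)
    rw [(hW w).mp hw] at h1
    exact (smul_eq_zero.mp h1.symm).resolve_left hcard
  rw [Subgroup.eq_bot_iff_forall]
  intro m hm
  apply h.faith
  intro v
  have hS : ∀ m' ∈ M, ρ m' (∑ m : M, ρ (m : G) v) = ∑ m : M, ρ (m : G) v := by
    intro m' hm'
    rw [map_sum]
    apply Fintype.sum_equiv (Equiv.mulLeft (⟨m', hm'⟩ : M))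
    intro m
    rw [← rho_mul]
    rfl
  have h1 : (Nat.card M : ZMod 3) • v - ∑ m : M, ρ (m : G) v ∈ W := by
    rw [hW]
    simp only [map_sub, map_smul]
    rw [Finset.sum_sub_distrib, ← Finset.smul_sum, hsumfix _ hS, sub_self]
  have h2 := sub_eq_zero.mp (hW0 _ h1)
  have h3 : (Nat.card M : ZMod 3) • ρ m v = (Nat.card M : ZMod 3) • v := by
    rw [← map_smul, h2]
    exact hS m hm
  have h4 : (Nat.card M : ZMod 3) • (ρ m v - v) = 0 := by rw [smul_sub, h3, sub_self]
  exact sub_eq_zero.mp ((smul_eq_zero.mp h4).resolve_left hcard)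

/-- An element commuting with the four-group acts as `±1` on the line. -/
theorem CS.scalar (h : CS ρ R b) (hq : FG b t) {e : E} (he : e ∈ l1 ρ b t) (he0 : e ≠ 0) {c : G}
    (h1 : c * t = t * c) (h2 : c * cj b t = cj b t * c) : ρ c e = e ∨ ρ c e = -e := by
  have h3 : ρ c e ∈ l1 ρ b t := by
    constructor
    · rw [← rho_mul, ← h1, rho_mul, he.1]
    · rw [← rho_mul, ← h2, rho_mul, he.2, map_neg]
  obtain ⟨k, hk⟩ := h.line hq he he0 h3
  rcases zmod3_cases k with rfl | rfl | rfl
  · exfalso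
    rw [zero_smul] at hk
    have := ρ.inv_self_apply c e
    rw [hk, map_zero] at this
    exact he0 this.symm
  · left; rw [hk, one_smul]
  · right; rw [hk, neg_smul, one_smul]

theorem zpowers_normal {c : G} (hc : ∀ g, g * c = c * g) : (Subgroup.zpowers c).Normal := by
  constructor
  intro n hn g
  obtain ⟨k, rfl⟩ := Subgroup.mem_zpowers_iff.mp hn
  have h1 : Commute g (c ^ k) := (show Commute g c from hc g).zpow_right k
  rw [h1.eq, mul_inv_cancel_right]
  exact Subgroup.mem_zpowers_iff.mpr ⟨k, rfl⟩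

/-- A central element of `R` fixing a vector of the line is trivial. -/
theorem CS.central_one [Finite G] (h : CS ρ R b) (hq : FG b t) {e : E} (he : e ∈ l1 ρ b t)
    (he0 : e ≠ 0) {c : G} (hcR : c ∈ R) (hc : ∀ g, g * c = c * g) (hce : ρ c e = e) : c = 1 := by
  have h1 := h.triv_of_line hq he he0 (Subgroup.zpowers c) (zpowers_normal hc)
    (by rw [Subgroup.zpowers_le]; exact hcR) (by
      intro m hm
      let K : Subgroup G :=
        { carrier := {g | ρ g e = e}
          one_mem' := rho_one ρ e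
          mul_mem' := by
            intro a d ha hd
            show ρ (a * d) e = e
            have ha' : ρ a e = e := ha
            have hd' : ρ d e = e := hd
            rw [rho_mul, hd', ha']
          inv_mem' := by
            intro a ha
            have ha' : ρ a e = e := ha
            show ρ a⁻¹ e = e
            have := ρ.inv_self_apply a e
            rwa [ha'] at this }
      have h2 : Subgroup.zpowers c ≤ K := by rw [Subgroup.zpowers_le]; exact hce
      exact h2 hm)
  rwa [Subgroup.zpowers_eq_bot] at h1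

theorem CS.central_sq [Finite G] (h : CS ρ R b) (hq : FG b t) {c : G} (hcR : c ∈ R)
    (hc : ∀ g, g * c = c * g) : c * c = 1 := by
  obtain ⟨e, he, he0⟩ := h.exists_line hq
  apply h.central_one hq he he0 (R.mul_mem hcR hcR)
  · intro g
    rw [← mul_assoc, hc g, mul_assoc, hc g, ← mul_assoc]
  · rcases h.scalar hq he he0 (hc t).symm (hc _).symm with h1 | h1
    · rw [rho_mul, h1, h1]
    · rw [rho_mul, h1, map_neg, h1, neg_neg]

/-- `R` contains at most one nontrivial element central in `G`. -/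
theorem CS.central_eq [Finite G] (h : CS ρ R b) (hq : FG b t) {c d : G} (hcR : c ∈ R)
    (hc : ∀ g, g * c = c * g) (hc1 : c ≠ 1) (hdR : d ∈ R) (hd : ∀ g, g * d = d * g) (hd1 : d ≠ 1) :
    c = d := by
  obtain ⟨e, he, he0⟩ := h.exists_line hq
  have key : ∀ x ∈ R, (∀ g, g * x = x * g) → x ≠ 1 → ρ x e = -e := by
    intro x hxR hx hx1
    rcases h.scalar hq he he0 (hx t).symm (hx _).symm with h1 | h1
    · exact absurd (h.central_one hq he he0 hxR hx h1) hx1
    · exact h1
  have h1 : c * d = 1 := by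
    apply h.central_one hq he he0 (R.mul_mem hcR hdR)
    · intro g
      rw [← mul_assoc, hc g, mul_assoc, hd g, ← mul_assoc]
    · rw [rho_mul, key d hdR hd hd1, map_neg, key c hcR hc hc1, neg_neg]
  have h2 := h.central_sq hq hdR hd
  exact mul_right_cancel (h1.trans h2.symm)

end Cfsg.Agent.H587.Cubic
end

-- part: H587/CubicD
section
/-!
# S4415, part D: normal abelian subgroups of order prime to 6 are trivial
-/

set_option autoImplicit false
set_option linter.unusedSectionVars false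
set_option linter.unusedVariables false

namespace Cfsg.Agent.H587.Cubic

open Module
open scoped commutatorElement

variable {G : Type*} [Group G] {E : Type*} [AddCommGroup E] [Module (ZMod 3) E] [Finite E]
variable {ρ : Representation (ZMod 3) G E} {R : Subgroup G} {b t : G}

theorem card_end_units (W : Type*) [AddCommGroup W] [Module (ZMod 3) W] [Finite W] :
    Nat.card (Module.End (ZMod 3) W)ˣ =
      ∏ i : Fin (finrank (ZMod 3) W), (3 ^ finrank (ZMod 3) W - 3 ^ (i : ℕ)) := by
  have : Module.Finite (ZMod 3) W := Module.Finite.of_finite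
  have : Fact (Nat.Prime 3) := ⟨Nat.prime_three⟩
  let bs := Module.finBasis (ZMod 3) W
  have e : (Module.End (ZMod 3) W)ˣ ≃* GL (Fin (finrank (ZMod 3) W)) (ZMod 3) :=
    Units.mapEquiv (LinearMap.toMatrixAlgEquiv bs).toMulEquiv
  rw [Nat.card_congr e.toEquiv, Matrix.card_GL_field, ZMod.card]

/-- An element of order prime to 6 acts trivially on an invariant subspace of dimension at most two. -/
theorem small_trivial (W : Submodule (ZMod 3) E) (hd : finrank (ZMod 3) W ≤ 2) (g : G)
    (hW : ∀ w ∈ W, ρ g w ∈ W) {m : ℕ} (hm : g ^ m = 1) (hcop : Nat.Coprime m 6) :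
    ∀ w ∈ W, ρ g w = w := by
  have hpow : ∀ (k : ℕ) (v : E), ((ρ g) ^ k) v = ρ (g ^ k) v := by
    intro k v; rw [← map_pow]
  let f : Module.End (ZMod 3) W := (ρ g).restrict hW
  have hf : ∀ (k : ℕ) (w : W), ((f ^ k) w : E) = ρ (g ^ k) w := by
    intro k
    induction k with
    | zero => intro w; rw [pow_zero, pow_zero, rho_one]; rfl
    | succ k ih =>
      intro w
      rw [pow_succ, pow_succ, Module.End.mul_apply, ih, rho_mul]
      rfl
  have hfm : f ^ m = 1 := by
    ext w
    rw [hf, hm, rho_one]; rfl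
  have hm0 : m ≠ 0 := by
    rintro rfl
    exact absurd hcop (by decide)
  let u : (Module.End (ZMod 3) W)ˣ := Units.ofPowEqOne f m hfm hm0
  have hum : u ^ m = 1 := by
    apply Units.ext
    rw [Units.val_pow_eq_pow_val]
    exact hfm
  have hu48 : u ^ 48 = 1 := by
    have h1 : Nat.card (Module.End (ZMod 3) W)ˣ ∣ 48 := by
      rw [card_end_units]
      interval_cases hk : finrank (ZMod 3) W
      · simp
      · simp
      · rw [Fin.prod_univ_two]; decide
    obtain ⟨k, hk⟩ := h1
    rw [hk, pow_mul, pow_card_eq_one', one_pow]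
  have hord : orderOf u = 1 := by
    have h1 := orderOf_dvd_of_pow_eq_one hum
    have h2 := orderOf_dvd_of_pow_eq_one hu48
    have h3 : Nat.Coprime m 48 := by
      have : (48 : ℕ) = 2 ^ 3 * 6 := by norm_num
      rw [this]
      apply Nat.Coprime.mul_right _ hcop
      apply Nat.Coprime.pow_right
      exact Nat.Coprime.coprime_dvd_right (by norm_num) hcop
    exact Nat.eq_one_of_dvd_coprimes h3 h1 h2
  rw [orderOf_eq_one_iff] at hord
  have hf1 : f = 1 := congrArg Units.val hord
  intro w hw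
  have := LinearMap.congr_fun hf1 ⟨w, hw⟩
  exact congrArg Subtype.val this

theorem decomp (s : G) (hs : s * s = 1) (v : E) :
    ∃ v₁ v₂ : E, v = v₁ + v₂ ∧ ρ s v₁ = v₁ ∧ ρ s v₂ = -v₂ := by
  refine ⟨(2 : ZMod 3) • (v + ρ s v), (2 : ZMod 3) • (v - ρ s v), ?_, ?_, ?_⟩
  · rw [← smul_add]
    have : v + ρ s v + (v - ρ s v) = (2 : ZMod 3) • v := by
      rw [two_smul]; abel
    rw [this, smul_smul]
    have : (2 : ZMod 3) * 2 = 1 := by decide
    rw [this, one_smul]
  · rw [map_smul, map_add, ← rho_mul, hs, rho_one, add_comm]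
  · rw [map_smul, map_sub, ← rho_mul, hs, rho_one, ← smul_neg, neg_sub]

/-- The `-1`-space of `t` is two-dimensional. -/
theorem CS.neg_space (h : CS ρ R b) (hq : FG b t) {e : E} (he : e ∈ l1 ρ b t) (he0 : e ≠ 0) {v : E}
    (hv : ρ t v = -v) : ∃ c d : ZMod 3, v = c • ρ b e + d • ρ b (ρ b e) := by
  have hb := h.b3
  obtain ⟨v₁, v₂, hv12, h1, h2⟩ := decomp (ρ := ρ) (cj b t) (hq.next hb).sq v
  -- `t` preserves the decomposition
  have ht1 : ρ t v₁ = -v₁ ∧ ρ t v₂ = -v₂ := by
    have e1 : ρ t v₁ + v₁ + (ρ t v₂ + v₂) = 0 := by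
      have : ρ t v + v = 0 := by rw [hv]; abel
      rw [hv12, map_add] at this
      rw [← this]; abel
    have e2 : ρ (cj b t) (ρ t v₁ + v₁) = ρ t v₁ + v₁ := by
      rw [map_add, ← rho_mul, ← hq.comm12 hb, rho_mul, h1]
    have e3 : ρ (cj b t) (ρ t v₂ + v₂) = -(ρ t v₂ + v₂) := by
      rw [map_add, ← rho_mul, ← hq.comm12 hb, rho_mul, h2, map_neg]; abel
    have e4 : (ρ t v₁ + v₁) + -(ρ t v₂ + v₂) = 0 := by
      have := congrArg (ρ (cj b t)) e1
      rw [map_add, e2, e3, map_zero] at this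
      exact this
    have e5 : ρ t v₁ + v₁ = 0 := by
      apply two_smul_inj
      calc ρ t v₁ + v₁ + (ρ t v₁ + v₁) = (ρ t v₁ + v₁ + (ρ t v₂ + v₂)) +
            ((ρ t v₁ + v₁) + -(ρ t v₂ + v₂)) := by abel
        _ = 0 := by rw [e1, e4, add_zero]
    have e6 : ρ t v₂ + v₂ = 0 := by rw [e5, zero_add] at e1; exact e1
    exact ⟨eq_neg_of_add_eq_zero_left e5, eq_neg_of_add_eq_zero_left e6⟩
  -- `v₁` is in the second line, `v₂` in the third
  have hback : ∀ w, w ∈ ln ρ (cj b t) t → ∃ c : ZMod 3, w = c • ρ b e := by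
    intro w hw
    have h3 := ln_cj (ρ := ρ) b⁻¹ hw
    have h4 : cj b⁻¹ (cj b t) = t := by unfold cj; group
    have h5 : cj b⁻¹ t = cj b (cj b t) := by
      have : t = cj b (cj b (cj b t)) := (cj_three hb t).symm
      conv_lhs => rw [this]
      unfold cj; group
    rw [h4, h5] at h3
    have h6 : ρ b⁻¹ w ∈ l1 ρ b t := by
      refine ⟨h3.1, ?_⟩
      have h7 : cj b t = t * cj b (cj b t) := by
        rw [← hq.mul_eq hb, ← mul_assoc, hq.sq, one_mul]
      have h8 : ρ (t * cj b (cj b t)) (ρ b⁻¹ w) = -(ρ b⁻¹ w) := by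
        rw [rho_mul, h3.2, map_neg, h3.1]
      rwa [← h7] at h8
    obtain ⟨c, hc⟩ := h.line hq he he0 h6
    refine ⟨c, ?_⟩
    have h9 := ρ.self_inv_apply b w
    rw [hc, map_smul] at h9
    exact h9.symm
  obtain ⟨c, hc⟩ := hback v₁ ⟨h1, ht1.1⟩
  have hq3 : ρ (cj b (cj b t)) v₂ = v₂ := by
    rw [← hq.mul_eq hb, rho_mul, h2, map_neg, ht1.2, neg_neg]
  have h10 : ρ b v₂ ∈ l1 ρ b t := by
    have h11 := ln_cj (ρ := ρ) b (show v₂ ∈ ln ρ (cj b (cj b t)) t from ⟨hq3, ht1.2⟩)
    rw [cj_three hb] at h11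
    exact h11
  obtain ⟨d, hd⟩ := h.line hq he he0 h10
  refine ⟨c, d, ?_⟩
  have h12 : v₂ = d • ρ b (ρ b e) := by
    have h13 := h.rho_b3 v₂
    rw [hd, map_smul, map_smul] at h13
    exact h13.symm
  rw [hv12, hc, h12]

/-- (L1) -/
theorem CS.fixed_inverted (h : CS ρ R b) (hq : FG b t) {n : G} {m : ℕ} (hm : n ^ m = 1)
    (hcop : Nat.Coprime m 6) (h1 : t * n = n * t) (h2 : cj b t * n = n⁻¹ * cj b t) : n = 1 := by
  have hb := h.b3
  obtain ⟨e, he, he0⟩ := h.exists_line hq
  -- the `-1`-space of `t`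
  let F : Submodule (ZMod 3) E :=
    { carrier := {v | ρ t v = -v}
      zero_mem' := by show ρ t (0 : E) = -0; simp
      add_mem' := by
        intro a c ha hc
        have ha' : ρ t a = -a := ha
        have hc' : ρ t c = -c := hc
        show ρ t (a + c) = -(a + c)
        rw [map_add, ha', hc']; abel
      smul_mem' := by
        intro k a ha
        have ha' : ρ t a = -a := ha
        show ρ t (k • a) = -(k • a)
        rw [map_smul, ha', smul_neg] }
  have hFd : finrank (ZMod 3) F ≤ 2 := by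
    have hle : F ≤ Submodule.span (ZMod 3) (Set.range ![ρ b e, ρ b (ρ b e)]) := by
      intro v hv
      obtain ⟨c, d, rfl⟩ := h.neg_space hq he he0 hv
      apply Submodule.add_mem
      · exact Submodule.smul_mem _ _ (Submodule.subset_span ⟨0, rfl⟩)
      · exact Submodule.smul_mem _ _ (Submodule.subset_span ⟨1, rfl⟩)
    have hfin : Module.Finite (ZMod 3) (Submodule.span (ZMod 3) (Set.range ![ρ b e, ρ b (ρ b e)])) :=
      Module.Finite.of_finite
    refine (Submodule.finrank_mono hle).trans ?_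
    refine (finrank_range_le_card _).trans ?_
    rw [Fintype.card_fin]
  have hFn : ∀ w ∈ F, ρ n w = w := by
    apply small_trivial F hFd n _ hm hcop
    intro w hw
    have hw' : ρ t w = -w := hw
    show ρ t (ρ n w) = -(ρ n w)
    rw [← rho_mul, h1, rho_mul, hw', map_neg]
  -- the image of `n² - 1`
  let X : Submodule (ZMod 3) E := Submodule.span (ZMod 3) (Set.range ![e, ρ n e])
  have heX : e ∈ X := Submodule.subset_span ⟨0, rfl⟩
  have hneX : ρ n e ∈ X := Submodule.subset_span ⟨1, rfl⟩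
  have hXd : finrank (ZMod 3) X ≤ 2 := by
    refine (finrank_range_le_card _).trans ?_
    rw [Fintype.card_fin]
  have hcomm_inv : t * n⁻¹ = n⁻¹ * t := by
    calc t * n⁻¹ = n⁻¹ * (n * t) * n⁻¹ := by group
      _ = n⁻¹ * (t * n) * n⁻¹ := by rw [h1]
      _ = n⁻¹ * t := by group
  have hplus : ∀ v, ρ t v = v → ρ (cj b t) v - v ∈ l1 ρ b t := by
    intro v hv
    constructor
    · rw [map_sub, hv, ← rho_mul, hq.comm12 hb, rho_mul, hv]
    · rw [map_sub, ← rho_mul, (hq.next hb).sq, rho_one]; abel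
  have hnn : n * n = n * cj b t * n⁻¹ * cj b t := by
    have h3 : cj b t * n * cj b t = n⁻¹ := by
      rw [h2, mul_assoc, (hq.next hb).sq, mul_one]
    have h4 : cj b t * n⁻¹ * cj b t = n := by
      rw [← h3]
      calc cj b t * (cj b t * n * cj b t) * cj b t = (cj b t * cj b t) * n * (cj b t * cj b t) := by group
        _ = n := by rw [(hq.next hb).sq, one_mul, mul_one]
    calc n * n = n * (cj b t * n⁻¹ * cj b t) := by rw [h4]
      _ = _ := by group
  have hrange : ∀ v : E, ρ (n * n) v - v ∈ X := by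
    intro v
    obtain ⟨v₁, v₂, rfl, hv1, hv2⟩ := decomp (ρ := ρ) t hq.sq v
    have e2 : ρ (n * n) v₂ = v₂ := by rw [rho_mul, hFn v₂ hv2, hFn v₂ hv2]
    -- on `v₁`
    obtain ⟨c, hc⟩ := h.line hq he he0 (hplus v₁ hv1)
    have hc' : ρ (cj b t) v₁ = v₁ + c • e := by rw [← hc]; abel
    set u := ρ n⁻¹ (v₁ + c • e) with hu
    have hu1 : ρ t u = u := by
      rw [hu, ← rho_mul, hcomm_inv, rho_mul, map_add, map_smul, hv1, he.1]
    obtain ⟨d, hd⟩ := h.line hq he he0 (hplus u hu1)
    have hd' : ρ (cj b t) u = u + d • e := by rw [← hd]; abel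
    have e1 : ρ (n * n) v₁ = v₁ + c • e + d • ρ n e := by
      rw [hnn, rho_mul, hc', rho_mul, rho_mul, ← hu, hd', map_add, map_smul, hu, ρ.self_inv_apply]
    rw [map_add, e1, e2]
    have : v₁ + c • e + d • ρ n e + v₂ - (v₁ + v₂) = c • e + d • ρ n e := by abel
    rw [this]
    exact X.add_mem (X.smul_mem _ heX) (X.smul_mem _ hneX)
  have hXinv : ∀ w ∈ X, ρ (n * n) w ∈ X := by
    intro w hw
    have := X.add_mem (hrange w) hw
    rwa [sub_add_cancel] at this
  have hm2 : (n * n) ^ m = 1 := by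
    rw [← sq, ← pow_mul, mul_comm, pow_mul, hm, one_pow]
  have hXtriv := small_trivial X hXd (n * n) hXinv hm2 hcop
  -- `(n²)³ = 1`
  have h6 : (n * n) ^ 3 = 1 := by
    apply h.faith
    intro v
    obtain ⟨x, hx⟩ : ∃ x, ρ (n * n) v - v = x := ⟨_, rfl⟩
    have hxX : x ∈ X := hx ▸ hrange v
    have e1 : ρ (n * n) v = v + x := by rw [← hx]; abel
    have e2 : ρ (n * n) (v + x) = v + x + x := by rw [map_add, e1, hXtriv x hxX]
    have e3 : ρ (n * n) (v + x + x) = v + x + x + x := by rw [map_add, e2, hXtriv x hxX]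
    have e4 : (n * n) ^ 3 = (n * n) * ((n * n) * (n * n)) := by
      rw [pow_succ, sq, mul_assoc]
    rw [e4, rho_mul ρ (n * n), rho_mul ρ (n * n), e1, e2, e3]
    have e5 : x + x + x = 0 := by
      have h7 : (3 : ZMod 3) • x = 0 := by
        have : (3 : ZMod 3) = 0 := rfl
        rw [this, zero_smul]
      have h8 : (3 : ZMod 3) • x = x + x + x := by
        have : (3 : ZMod 3) = 1 + 1 + 1 := rfl
        rw [this, add_smul, add_smul, one_smul]
      rw [← h8, h7]
    calc v + x + x + x = v + (x + x + x) := by abel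
      _ = v := by rw [e5, add_zero]
  have h7 : n ^ 6 = 1 := by
    rw [← sq, ← pow_mul] at h6
    exact h6
  have h8 : orderOf n = 1 :=
    Nat.eq_one_of_dvd_coprimes hcop (orderOf_dvd_of_pow_eq_one hm) (orderOf_dvd_of_pow_eq_one h7)
  exact orderOf_eq_one_iff.mp h8

/-- Elements of an abelian normal subgroup of order prime to 6 commute with the four-group. -/
theorem CS.odd_comm (h : CS ρ R b) (hq : FG b t) (M : Subgroup G) (hM : M.Normal)
    (hab : ∀ x ∈ M, ∀ y ∈ M, x * y = y * x) {m : ℕ} (hm : ∀ x ∈ M, x ^ m = 1)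
    (hcop : Nat.Coprime m 6) {u : G} (hu : u ∈ M) : cj t u = u := by
  have hb := h.b3
  -- the basic vanishing
  have key : ∀ (s : G), FG b s → u * cj s u * (cj (cj b s) u)⁻¹ * (cj (cj b (cj b s)) u)⁻¹ = 1 := by
    intro s hs
    have a0 := hM.conj_mem u hu s
    have a1 := hM.conj_mem u hu (cj b s)
    have a2 := hM.conj_mem u hu (cj b (cj b s))
    change cj s u ∈ M at a0
    change cj (cj b s) u ∈ M at a1
    change cj (cj b (cj b s)) u ∈ M at a2
    have hv : u * cj s u * (cj (cj b s) u)⁻¹ * (cj (cj b (cj b s)) u)⁻¹ ∈ M :=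
      M.mul_mem (M.mul_mem (M.mul_mem hu a0) (M.inv_mem a1)) (M.inv_mem a2)
    have c1 : cj s (cj s u) = u := by rw [cj_cj, hs.sq]; unfold cj; group
    have c2 : cj s (cj (cj b s) u) = cj (cj b (cj b s)) u := by rw [cj_cj, hs.mul_eq hb]
    have c3 : cj s (cj (cj b (cj b s)) u) = cj (cj b s) u := by
      rw [cj_cj, ← hs.mul_eq hb, ← mul_assoc, hs.sq, one_mul]
    have d1 : cj (cj b s) (cj s u) = cj (cj b (cj b s)) u := by
      rw [cj_cj, ← hs.comm12 hb, hs.mul_eq hb]
    have d2 : cj (cj b s) (cj (cj b s) u) = u := by rw [cj_cj, (hs.next hb).sq]; unfold cj; group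
    have d3 : cj (cj b s) (cj (cj b (cj b s)) u) = cj s u := by rw [cj_cj, hs.mul23 hb]
    have i1 := M.inv_mem a1
    have i2 := M.inv_mem a2
    have hfix : cj s (u * cj s u * (cj (cj b s) u)⁻¹ * (cj (cj b (cj b s)) u)⁻¹) =
        u * cj s u * (cj (cj b s) u)⁻¹ * (cj (cj b (cj b s)) u)⁻¹ := by
      rw [cj_mul, cj_mul, cj_mul, cj_inv, cj_inv, c1, c2, c3, hab _ a0 _ hu, mul_assoc, mul_assoc,
        hab _ i2 _ i1]
      simp only [mul_assoc]
    have hinv : cj (cj b s) (u * cj s u * (cj (cj b s) u)⁻¹ * (cj (cj b (cj b s)) u)⁻¹) =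
        (u * cj s u * (cj (cj b s) u)⁻¹ * (cj (cj b (cj b s)) u)⁻¹)⁻¹ := by
      rw [cj_mul, cj_mul, cj_mul, cj_inv, cj_inv, d1, d2, d3]
      simp only [mul_inv_rev, inv_inv]
      rw [hab _ a1 _ a2]
      simp only [mul_assoc]
      rw [hab _ (M.inv_mem hu) _ (M.inv_mem a0)]
    apply h.fixed_inverted hs (hm _ hv) hcop
    · rw [mul_eq_cj, hfix]
    · rw [mul_eq_cj, hinv]
  have k1 := key t hq
  have k3 := key (cj b (cj b t)) ((hq.next hb).next hb)
  rw [cj_three hb] at k3
  have a0 := hM.conj_mem u hu t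
  have a1 := hM.conj_mem u hu (cj b t)
  have a2 := hM.conj_mem u hu (cj b (cj b t))
  change cj t u ∈ M at a0
  change cj (cj b t) u ∈ M at a1
  change cj (cj b (cj b t)) u ∈ M at a2
  -- the product of `k3` and the version for `cj b t` gives `u ^ 2 = (cj t u) ^ 2`
  have k2 := key (cj b t) (hq.next hb)
  rw [cj_three hb] at k2
  have i0 := M.inv_mem a0
  have i1 := M.inv_mem a1
  have i2 := M.inv_mem a2
  have hsq : (u * (cj t u)⁻¹) ^ 2 = 1 := by
    have e : (u * cj (cj b t) u * (cj (cj b (cj b t)) u)⁻¹ * (cj t u)⁻¹) *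
        (u * cj (cj b (cj b t)) u * (cj t u)⁻¹ * (cj (cj b t) u)⁻¹) = (u * (cj t u)⁻¹) ^ 2 := by
      generalize cj (cj b t) u = x at *
      generalize cj (cj b (cj b t)) u = y at *
      generalize cj t u = z at *
      have hcx : ∀ w ∈ M, x * w = w * x := fun w hw => hab x a1 w hw
      have hcy : ∀ w ∈ M, y * w = w * y := fun w hw => hab y a2 w hw
      have huz := hab u hu _ i0
      calc (u * x * y⁻¹ * z⁻¹) * (u * y * z⁻¹ * x⁻¹) = u * (x * (y⁻¹ * z⁻¹ * u * y * z⁻¹)) * x⁻¹ := by group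
        _ = u * ((y⁻¹ * z⁻¹ * u * y * z⁻¹) * x) * x⁻¹ := by
            rw [hcx _ (M.mul_mem (M.mul_mem (M.mul_mem (M.mul_mem i2 i0) hu) a2) i0)]
        _ = u * (y⁻¹ * (z⁻¹ * u * (y * z⁻¹))) := by group
        _ = u * (y⁻¹ * (z⁻¹ * u * (z⁻¹ * y))) := by rw [hcy _ i0]
        _ = u * (y⁻¹ * ((z⁻¹ * u * z⁻¹) * y)) := by group
        _ = u * (y⁻¹ * (y * (z⁻¹ * u * z⁻¹))) := by
            rw [hcy _ (M.mul_mem (M.mul_mem i0 hu) i0)]
        _ = (u * z⁻¹) ^ 2 := by rw [sq]; group
    rw [← e]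
    have k3' : u * cj (cj b (cj b t)) u * (cj t u)⁻¹ * (cj (cj b t) u)⁻¹ = 1 := k3
    have k2' : u * cj (cj b t) u * (cj (cj b (cj b t)) u)⁻¹ * (cj t u)⁻¹ = 1 := k2
    rw [k2', k3', one_mul]
  have hmem : u * (cj t u)⁻¹ ∈ M := M.mul_mem hu i0
  have h2 : Nat.Coprime m 2 := Nat.Coprime.coprime_dvd_right (by norm_num) hcop
  have h3 : orderOf (u * (cj t u)⁻¹) = 1 :=
    Nat.eq_one_of_dvd_coprimes h2 (orderOf_dvd_of_pow_eq_one (hm _ hmem))
      (orderOf_dvd_of_pow_eq_one hsq)
  rw [orderOf_eq_one_iff, mul_inv_eq_one] at h3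
  exact h3.symm

/-- Abelian normal subgroups of `R` of exponent prime to 6 are trivial. -/
theorem CS.odd_trivial [Finite G] (h : CS ρ R b) (hq : FG b t) (M : Subgroup G) (hM : M.Normal)
    (hMR : M ≤ R) (hab : ∀ x ∈ M, ∀ y ∈ M, x * y = y * x) {m : ℕ} (hm : ∀ x ∈ M, x ^ m = 1)
    (hcop : Nat.Coprime m 6) : M = ⊥ := by
  obtain ⟨e, he, he0⟩ := h.exists_line hq
  apply h.triv_of_line hq he he0 M hM hMR
  intro u hu
  have c1 := h.odd_comm hq M hM hab hm hcop hu
  have c2 := h.odd_comm (hq.next h.b3) M hM hab hm hcop hu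
  rcases h.scalar hq he he0 (c := u) (by rw [mul_eq_cj t u, c1]) (by rw [mul_eq_cj (cj b t) u, c2])
    with h1 | h1
  · exact h1
  · exfalso
    have hodd : Odd m := by
      rw [← Nat.not_even_iff_odd]
      intro hev
      have h2 : Nat.Coprime m 2 := Nat.Coprime.coprime_dvd_right (by norm_num) hcop
      have h3 : (2 : ℕ) ∣ 1 := by
        rw [← h2]; exact Nat.dvd_gcd hev.two_dvd (dvd_refl 2)
      omega
    have h4 : ∀ k : ℕ, ρ (u ^ k) e = (-1 : ZMod 3) ^ k • e := by
      intro k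
      induction k with
      | zero => rw [pow_zero, pow_zero, rho_one, one_smul]
      | succ k ih =>
        rw [pow_succ', rho_mul, ih, map_smul, h1, pow_succ, mul_smul, neg_smul, one_smul]
    have h5 := h4 m
    rw [hm u hu, rho_one, hodd.neg_one_pow, neg_smul, one_smul] at h5
    exact he0 (eq_zero_of_neg h5)

end Cfsg.Agent.H587.Cubic
end

-- part: H587/CubicE
section
/-!
# S4415, part E: minimal normal subgroups not centralized by `b`
-/

set_option autoImplicit false
set_option linter.unusedSectionVars false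
set_option linter.unusedVariables false

namespace Cfsg.Agent.H587.Cubic

open Module
open scoped commutatorElement

section

variable {G : Type*} [Group G]

/-- `M` is not centralized by `b`. -/
def NC (b : G) (M : Subgroup G) : Prop := ∃ m ∈ M, b * m ≠ m * b

/-- An extraspecial normal subgroup. -/
structure EX (b : G) (R N : Subgroup G) (z : G) : Prop where
  nor : N.Normal
  le : N ≤ R
  nc : NC b N
  mem : z ∈ N
  ne : z ≠ 1
  sq : z * z = 1
  cen : ∀ g, g * z = z * g
  sqs : ∀ x ∈ N, x * x = 1 ∨ x * x = z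
  com : ∀ x ∈ N, ∀ y ∈ N, x * y = y * x ∨ x * y = y * x * z
  ctr : ∀ x ∈ N, (∀ y ∈ N, x * y = y * x) → x = 1 ∨ x = z
  min : ∀ M : Subgroup G, M.Normal → M ≤ N → M ≠ N → ∀ g : G, ∀ m ∈ M, g * m = m * g

end

section

variable {G : Type*} [Group G] {E : Type*} [AddCommGroup E] [Module (ZMod 3) E] [Finite E]
variable {ρ : Representation (ZMod 3) G E} {R : Subgroup G} {b t : G}

/-- The elements of exponent `m` of an abelian subgroup. -/
def tors (N : Subgroup G) (hab : ∀ x ∈ N, ∀ y ∈ N, x * y = y * x) (m : ℕ) : Subgroup G where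
  carrier := {x | x ∈ N ∧ x ^ m = 1}
  one_mem' := ⟨N.one_mem, one_pow m⟩
  mul_mem' := by
    rintro a c ⟨h1, h2⟩ ⟨h3, h4⟩
    exact ⟨N.mul_mem h1 h3, by rw [(show Commute a c from hab a h1 c h3).mul_pow, h2, h4, one_mul]⟩
  inv_mem' := by
    rintro a ⟨h1, h2⟩
    exact ⟨N.inv_mem h1, by rw [inv_pow, h2, inv_one]⟩

theorem mem_tors {N : Subgroup G} {hab : ∀ x ∈ N, ∀ y ∈ N, x * y = y * x} {m : ℕ} {x : G} :
    x ∈ tors N hab m ↔ x ∈ N ∧ x ^ m = 1 := Iff.rfl

theorem tors_normal {N : Subgroup G} (hN : N.Normal) (hab : ∀ x ∈ N, ∀ y ∈ N, x * y = y * x) (m : ℕ) :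
    (tors N hab m).Normal := by
  constructor
  rintro x ⟨h1, h2⟩ g
  exact ⟨hN.conj_mem x h1 g, by rw [conj_pow, h2, mul_one, mul_inv_cancel]⟩

/-- An abelian normal subgroup is a 2-group. -/
theorem CS.abelian_two [Finite G] (h : CS ρ R b) (hq : FG b t) (N : Subgroup G) (hN : N.Normal)
    (hNR : N ≤ R) (hab : ∀ x ∈ N, ∀ y ∈ N, x * y = y * x) : ∃ k : ℕ, ∀ x ∈ N, x ^ (2 ^ k) = 1 := by
  have hN0 : Nat.card N ≠ 0 := Nat.card_pos.ne'
  obtain ⟨k, m, hm, hkm⟩ := Nat.exists_eq_two_pow_mul_odd hN0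
  have hcop : Nat.Coprime m 6 := by
    have h2 : Nat.Coprime m 2 := by
      rw [Nat.coprime_comm, Nat.coprime_two_left]
      exact hm
    have h3 : Nat.Coprime m 3 := by
      rw [Nat.coprime_comm, Nat.Prime.coprime_iff_not_dvd Nat.prime_three]
      intro h3
      apply h.r3
      refine (h3.trans ?_).trans (Subgroup.card_dvd_of_le hNR)
      rw [hkm]
      exact Dvd.intro_left _ rfl
    have : (6 : ℕ) = 2 * 3 := by norm_num
    rw [this]
    exact Nat.Coprime.mul_right h2 h3
  have hbot := h.odd_trivial hq (tors N hab m) (tors_normal hN hab m) (fun x hx => hNR hx.1)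
    (fun x hx y hy => hab x hx.1 y hy.1) (m := m) (fun x hx => hx.2) hcop
  refine ⟨k, ?_⟩
  intro x hx
  have h1 : x ^ (2 ^ k) ∈ tors N hab m := by
    refine ⟨N.pow_mem hx _, ?_⟩
    rw [← pow_mul, ← hkm]
    have h2 := pow_card_eq_one' (x := (⟨x, hx⟩ : N))
    have h3 := congrArg Subtype.val h2
    exact h3
  rw [hbot, Subgroup.mem_bot] at h1
  exact h1

/-- The squares of an abelian subgroup. -/
def sqs (N : Subgroup G) (hab : ∀ x ∈ N, ∀ y ∈ N, x * y = y * x) : Subgroup G where
  carrier := {x | ∃ y ∈ N, y * y = x}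
  one_mem' := ⟨1, N.one_mem, mul_one 1⟩
  mul_mem' := by
    rintro _ _ ⟨a, ha, rfl⟩ ⟨c, hc, rfl⟩
    refine ⟨a * c, N.mul_mem ha hc, ?_⟩
    calc a * c * (a * c) = a * (c * a) * c := by group
      _ = a * (a * c) * c := by rw [hab c hc a ha]
      _ = a * a * (c * c) := by group
  inv_mem' := by
    rintro _ ⟨a, ha, rfl⟩
    exact ⟨a⁻¹, N.inv_mem ha, by group⟩

/-- The dichotomy. -/
theorem CS.minimal [Finite G] [Group.IsSolvable G] (h : CS ρ R b) (hq : FG b t) (C : Subgroup G)
    (hC : C.Normal) (hCR : C ≤ R) (hnc : NC b C) :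
    ∃ N : Subgroup G, N ≤ C ∧ ((N.Normal ∧ NC b N ∧ ∀ x ∈ N, x * x = 1) ∨ ∃ z, EX b R N z) := by
  obtain ⟨N, hN⟩ := exists_minimal_of_wellFoundedLT
    (fun M : Subgroup G => M.Normal ∧ M ≤ C ∧ NC b M) ⟨C, hC, le_rfl, hnc⟩
  obtain ⟨⟨hNn, hNC, hNnc⟩, hmin⟩ := hN
  have hNR := hNC.trans hCR
  -- proper normal subgroups are central
  have hprop : ∀ M : Subgroup G, M.Normal → M ≤ N → M ≠ N → ∀ g : G, ∀ m ∈ M, g * m = m * g := by
    intro M hM hMN hne
    apply h.central hM
    by_contra hcon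
    push Not at hcon
    exact hne (le_antisymm hMN (hmin ⟨hM, hMN.trans hNC, hcon⟩ hMN))
  refine ⟨N, hNC, ?_⟩
  have hNbot : N ≠ ⊥ := by
    rintro rfl
    obtain ⟨m, hm, hm'⟩ := hNnc
    rw [Subgroup.mem_bot] at hm
    rw [hm, mul_one, one_mul] at hm'
    exact hm' rfl
  by_cases hab : ∀ x ∈ N, ∀ y ∈ N, x * y = y * x
  · left
    refine ⟨hNn, hNnc, ?_⟩
    obtain ⟨k, hk⟩ := h.abelian_two hq N hNn hNR hab
    -- squares
    have hsn : (sqs N hab).Normal := by
      constructor
      rintro _ ⟨y, hy, rfl⟩ g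
      exact ⟨g * y * g⁻¹, hNn.conj_mem y hy g, by group⟩
    have hsle : sqs N hab ≤ N := by
      rintro _ ⟨y, hy, rfl⟩
      exact N.mul_mem hy hy
    have hsne : sqs N hab ≠ N := by
      intro heq
      apply hNbot
      rw [eq_bot_iff]
      have key : ∀ j : ℕ, ∀ x ∈ N, ∃ y ∈ N, y ^ (2 ^ j) = x := by
        intro j
        induction j with
        | zero => intro x hx; exact ⟨x, hx, by rw [pow_zero, pow_one]⟩
        | succ j ih =>
          intro x hx
          rw [← heq] at hx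
          obtain ⟨y, hy, rfl⟩ := hx
          obtain ⟨w, hw, rfl⟩ := ih y hy
          refine ⟨w, hw, ?_⟩
          rw [pow_succ, mul_comm, two_mul, pow_add]
      intro x hx
      obtain ⟨y, hy, rfl⟩ := key k x hx
      rw [Subgroup.mem_bot]
      exact hk y hy
    have hsc := hprop _ hsn hsle hsne
    -- Omega
    by_contra hcon
    have hOn := tors_normal hNn hab 2
    have hOle : tors N hab 2 ≤ N := fun x hx => hx.1
    have hOne : tors N hab 2 ≠ N := by
      intro heq
      apply hcon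
      intro x hx
      rw [← heq] at hx
      rw [← sq]
      exact hx.2
    have hOc := hprop _ hOn hOle hOne
    -- `b` centralizes `N`
    obtain ⟨m, hm, hmne⟩ := hNnc
    apply hmne
    have hbm := hNn.conj_mem m hm b
    have e1 : cj b (m * m) = m * m := by
      unfold cj
      rw [hsc b (m * m) ⟨m, hm, rfl⟩, mul_inv_cancel_right]
    rw [cj_mul] at e1
    obtain ⟨c, hc⟩ : ∃ c, c = cj b m * m⁻¹ := ⟨_, rfl⟩
    have hcN : c ∈ N := by rw [hc]; exact N.mul_mem hbm (N.inv_mem hm)
    have hcc : c ^ 2 = 1 := by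
      have e2 : cj b m = c * m := by rw [hc]; group
      rw [e2] at e1
      have e3 : c * m * (c * m) = c * c * (m * m) := by
        calc c * m * (c * m) = c * (m * c) * m := by group
          _ = c * (c * m) * m := by rw [hab m hm c hcN]
          _ = _ := by group
      rw [e3] at e1
      rw [sq]
      calc c * c = c * c * (m * m) * (m * m)⁻¹ := by group
        _ = 1 := by rw [e1, mul_inv_cancel]
    have hcb : cj b c = c := by
      unfold cj
      rw [hOc b c ⟨hcN, hcc⟩, mul_inv_cancel_right]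
    have e2 : cj b m = c * m := by rw [hc]; group
    have e3 : cj b (cj b (cj b m)) = c * (c * (c * m)) := by
      rw [e2, cj_mul, hcb, e2, cj_mul, cj_mul, hcb, e2]
    rw [cj_three h.b3] at e3
    have e4 : c * (c * c) = 1 := by
      calc c * (c * c) = (c * (c * (c * m))) * m⁻¹ := by group
        _ = 1 := by rw [← e3, mul_inv_cancel]
    have e5 : c = 1 := by
      rw [← sq, hcc, mul_one] at e4
      exact e4
    rw [mul_eq_cj, e2, e5, one_mul]
  · right
    -- commutators
    have hcn : ⁅N, N⁆.Normal := inferInstance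
    have hcle : ⁅N, N⁆ ≤ N := Subgroup.commutator_le_left N N
    have hcne : ⁅N, N⁆ ≠ N := (Group.IsSolvable.commutator_lt_of_ne_bot hNbot).ne
    have hcc := hprop _ hcn hcle hcne
    have hcomm : ∀ x ∈ N, ∀ y ∈ N, ∃ c ∈ N, (∀ g, g * c = c * g) ∧ c * c = 1 ∧ x * y = c * (y * x) := by
      intro x hx y hy
      have h1 : ⁅x, y⁆ ∈ ⁅N, N⁆ := Subgroup.commutator_mem_commutator hx hy
      have h2 : ∀ g, g * ⁅x, y⁆ = ⁅x, y⁆ * g := fun g => hcc g _ h1
      refine ⟨⁅x, y⁆, hcle h1, h2, h.central_sq hq (hNR (hcle h1)) h2, ?_⟩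
      rw [commutatorElement_def]; group
    push Not at hab
    obtain ⟨x₀, hx₀, y₀, hy₀, hne0⟩ := hab
    obtain ⟨z, hzN, hzc, hz2, hz⟩ := hcomm x₀ hx₀ y₀ hy₀
    have hz1 : z ≠ 1 := by
      rintro rfl
      rw [one_mul] at hz
      exact hne0 hz
    have huniq : ∀ c ∈ N, (∀ g, g * c = c * g) → c = 1 ∨ c = z := by
      intro c hcN hc
      by_cases hc1 : c = 1
      · exact Or.inl hc1
      · exact Or.inr (h.central_eq hq (hNR hcN) hc hc1 (hNR hzN) hzc hz1)
    -- the centre of `N`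
    let Z : Subgroup G :=
      { carrier := {x | x ∈ N ∧ ∀ y ∈ N, x * y = y * x}
        one_mem' := ⟨N.one_mem, fun y _ => by rw [one_mul, mul_one]⟩
        mul_mem' := by
          rintro a c ⟨h1, h2⟩ ⟨h3, h4⟩
          exact ⟨N.mul_mem h1 h3, fun y hy => by rw [mul_assoc, h4 y hy, ← mul_assoc, h2 y hy, mul_assoc]⟩
        inv_mem' := by
          rintro a ⟨h1, h2⟩
          refine ⟨N.inv_mem h1, fun y hy => ?_⟩
          calc a⁻¹ * y = a⁻¹ * (y * a) * a⁻¹ := by group
            _ = a⁻¹ * (a * y) * a⁻¹ := by rw [h2 y hy]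
            _ = y * a⁻¹ := by group }
    have hZn : Z.Normal := by
      constructor
      rintro x ⟨h1, h2⟩ g
      refine ⟨hNn.conj_mem x h1 g, ?_⟩
      intro y hy
      have h3 := h2 _ (hNn.conj_mem y hy g⁻¹)
      rw [inv_inv] at h3
      calc g * x * g⁻¹ * y = g * (x * (g⁻¹ * y * g)) * g⁻¹ := by group
        _ = g * ((g⁻¹ * y * g) * x) * g⁻¹ := by rw [h3]
        _ = y * (g * x * g⁻¹) := by group
    have hZle : Z ≤ N := fun x hx => hx.1
    have hZne : Z ≠ N := by
      intro heq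
      have : x₀ ∈ Z := by rw [heq]; exact hx₀
      exact hne0 (this.2 y₀ hy₀)
    have hZc := hprop Z hZn hZle hZne
    have hctr : ∀ x ∈ N, (∀ y ∈ N, x * y = y * x) → x = 1 ∨ x = z := by
      intro x hx hxc
      exact huniq x hx (fun g => hZc g x ⟨hx, hxc⟩)
    refine ⟨z, hNn, hNR, hNnc, hzN, hz1, hz2, hzc, ?_, ?_, hctr, hprop⟩
    · intro x hx
      apply hctr (x * x) (N.mul_mem hx hx)
      intro y hy
      obtain ⟨c, hcN, hcc, hc2, hc⟩ := hcomm x hx y hy
      calc x * x * y = x * (x * y) := by group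
        _ = x * (c * (y * x)) := by rw [hc]
        _ = (x * c) * (y * x) := by group
        _ = (c * x) * (y * x) := by rw [hcc x]
        _ = c * (x * y) * x := by group
        _ = c * (c * (y * x)) * x := by rw [hc]
        _ = (c * c) * (y * (x * x)) := by group
        _ = y * (x * x) := by rw [hc2, one_mul]
    · intro x hx y hy
      obtain ⟨c, hcN, hcc, hc2, hc⟩ := hcomm x hx y hy
      rcases huniq c hcN hcc with rfl | rfl
      · left
        rw [hc, one_mul]
      · right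
        rw [hc, hcc]

end

end Cfsg.Agent.H587.Cubic
end

-- part: H587/CubicF
section
/-!
# S4415, part F: the extraspecial case lives in dimension four
-/

set_option autoImplicit false
set_option linter.unusedSectionVars false
set_option linter.unusedVariables false

namespace Cfsg.Agent.H587.Cubic

open Module
open scoped commutatorElement

variable {G : Type*} [Group G] {E : Type*} [AddCommGroup E] [Module (ZMod 3) E] [Finite E]
variable {ρ : Representation (ZMod 3) G E} {R : Subgroup G} {b t : G}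

/-- The `-1`-eigenspace. -/
def ngs (ρ : Representation (ZMod 3) G E) (z : G) : Submodule (ZMod 3) E where
  carrier := {v | ρ z v = -v}
  zero_mem' := by show ρ z (0 : E) = -0; simp
  add_mem' := by
    intro a c ha hc
    have ha' : ρ z a = -a := ha
    have hc' : ρ z c = -c := hc
    show ρ z (a + c) = -(a + c)
    rw [map_add, ha', hc']; abel
  smul_mem' := by
    intro k a ha
    have ha' : ρ z a = -a := ha
    show ρ z (k • a) = -(k • a)
    rw [map_smul, ha', smul_neg]

theorem mem_ngs {z : G} {v : E} : v ∈ ngs ρ z ↔ ρ z v = -v := Iff.rfl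

/-- The fixed space of one element. -/
def fxs (ρ : Representation (ZMod 3) G E) (z : G) : Submodule (ZMod 3) E where
  carrier := {v | ρ z v = v}
  zero_mem' := by show ρ z (0 : E) = 0; simp
  add_mem' := by
    intro a c ha hc
    have ha' : ρ z a = a := ha
    have hc' : ρ z c = c := hc
    show ρ z (a + c) = (a + c)
    rw [map_add, ha', hc']
  smul_mem' := by
    intro k a ha
    have ha' : ρ z a = a := ha
    show ρ z (k • a) = (k • a)
    rw [map_smul, ha']

theorem mem_fxs {z : G} {v : E} : v ∈ fxs ρ z ↔ ρ z v = v := Iff.rfl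

theorem CS.z_line [Finite G] (h : CS ρ R b) (hq : FG b t) {e : E} (he : e ∈ l1 ρ b t)
    (he0 : e ≠ 0) {z : G} (hzR : z ∈ R) (hz : ∀ g, g * z = z * g) (hz1 : z ≠ 1) : ρ z e = -e := by
  rcases h.scalar hq he he0 (hz t).symm (hz _).symm with h1 | h1
  · exact absurd (h.central_one hq he he0 hzR hz h1) hz1
  · exact h1

theorem ngs_inv {z : G} (hz : ∀ g, g * z = z * g) (g : G) {v : E} (hv : v ∈ ngs ρ z) :
    ρ g v ∈ ngs ρ z := by
  rw [mem_ngs] at hv ⊢
  rw [← rho_mul, ← hz, rho_mul, hv, map_neg]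

theorem fxs_inv {z : G} (hz : ∀ g, g * z = z * g) (g : G) {v : E} (hv : v ∈ fxs ρ z) :
    ρ g v ∈ fxs ρ z := by
  rw [mem_fxs] at hv ⊢
  rw [← rho_mul, ← hz, rho_mul, hv]

theorem CS.dd_ngs [Finite G] (h : CS ρ R b) (hq : FG b t) {z : G} (hzR : z ∈ R)
    (hz : ∀ g, g * z = z * g) (hz1 : z ≠ 1) : dd ρ b ≤ ngs ρ z := by
  obtain ⟨e, he, he0⟩ := h.exists_line hq
  have h1 : e ∈ ngs ρ z := h.z_line hq he he0 hzR hz hz1
  intro v hv
  obtain ⟨c, d, f, rfl⟩ := h.dd_line hq he he0 v hv
  exact Submodule.add_mem _ (Submodule.add_mem _ (Submodule.smul_mem _ _ h1)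
    (Submodule.smul_mem _ _ (ngs_inv hz b h1))) (Submodule.smul_mem _ _ (ngs_inv hz b (ngs_inv hz b h1)))

theorem CS.fxs_trivial [Finite G] (h : CS ρ R b) (hq : FG b t) {z : G} (hzR : z ∈ R)
    (hz : ∀ g, g * z = z * g) (hz1 : z ≠ 1) : ∀ g : G, ∀ v ∈ fxs ρ z, ρ g v = v := by
  apply h.trivial_on (fxs ρ z) (fun g w hw => fxs_inv hz g hw)
  intro w hw
  have h1 : ρ b w - w ∈ fxs ρ z := Submodule.sub_mem _ (fxs_inv hz b hw) hw
  have h2 := h.dd_ngs hq hzR hz hz1 (sub_mem_dd ρ b w)
  rw [mem_fxs] at h1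
  rw [mem_ngs, h1] at h2
  exact sub_eq_zero.mp (eq_zero_of_neg h2)

/-- `G` is faithful on the `-1`-space of `z`. -/
theorem CS.ngs_faith [Finite G] (h : CS ρ R b) (hq : FG b t) {z : G} (hzR : z ∈ R)
    (hz : ∀ g, g * z = z * g) (hz1 : z ≠ 1) {g : G} (hg : ∀ v ∈ ngs ρ z, ρ g v = v) : g = 1 := by
  apply h.faith
  intro v
  obtain ⟨v₁, v₂, rfl, h1, h2⟩ := decomp (ρ := ρ) z (h.central_sq hq hzR hz) v
  rw [map_add, h.fxs_trivial hq hzR hz hz1 g v₁ h1, hg v₂ h2]

/-- An element of `N` moved by `b` modulo the centre. -/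
theorem EX.exists_y {N : Subgroup G} {z : G} (h : CS ρ R b) (hN : EX b R N z) :
    ∃ x ∈ N, x⁻¹ * cj b x ≠ 1 ∧ x⁻¹ * cj b x ≠ z := by
  by_contra hcon
  push Not at hcon
  obtain ⟨m, hm, hmne⟩ := hN.nc
  have h1 := hcon m hm
  by_cases h2 : m⁻¹ * cj b m = 1
  · apply hmne
    rw [mul_eq_cj]
    rw [inv_mul_eq_one] at h2
    rw [← h2]
  · have h3 := h1 h2
    have e1 : cj b m = m * z := by rw [← h3]; group
    have ez : cj b z = z := by
      unfold cj
      rw [hN.cen b, mul_inv_cancel_right]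
    have e2 : cj b (cj b (cj b m)) = m * z * z * z := by
      rw [e1, cj_mul, ez, e1, cj_mul, cj_mul, ez, e1]
    rw [cj_three h.b3, mul_assoc (m * z), hN.sq, mul_one] at e2
    exact hN.ne (left_eq_mul.mp e2)

theorem prod_y {x : G} (hb : b * b * b = 1) :
    (x⁻¹ * cj b x) * cj b (x⁻¹ * cj b x) * cj b (cj b (x⁻¹ * cj b x)) = 1 := by
  have e : cj b (cj b (x⁻¹ * cj b x)) = (cj b (cj b x))⁻¹ * x := by
    rw [cj_mul, cj_mul, cj_inv, cj_inv, cj_three hb]
  rw [e, cj_mul, cj_inv]
  group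

theorem finrank_span_le {k : ℕ} (W : Submodule (ZMod 3) E) (w : Fin k → E)
    (hw : ∀ v ∈ W, v ∈ Submodule.span (ZMod 3) (Set.range w)) : finrank (ZMod 3) W ≤ k := by
  have hfin : Module.Finite (ZMod 3) (Submodule.span (ZMod 3) (Set.range w)) := Module.Finite.of_finite
  refine (Submodule.finrank_mono hw).trans ?_
  refine (finrank_range_le_card _).trans ?_
  rw [Fintype.card_fin]

/-- The `-1`-space has dimension at most four. -/
theorem EX.dim_le [Finite G] (h : CS ρ R b) (hq : FG b t) {N : Subgroup G} {z : G}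
    (hN : EX b R N z) : finrank (ZMod 3) (ngs ρ z) ≤ 4 := by
  obtain ⟨x, hx, hy1, hyz⟩ := hN.exists_y h
  have hyN : x⁻¹ * cj b x ∈ N := N.mul_mem (N.inv_mem hx) (hN.nor.conj_mem x hx b)
  have hprod := prod_y (x := x) h.b3
  have hzR := hN.le hN.mem
  rcases hN.sqs _ hyN with hy2 | hy2
  · -- an involution
    generalize x⁻¹ * cj b x = y at *
    have hq' : FG b y := ⟨hy1, hy2, hprod⟩
    obtain ⟨e, he, he0⟩ := h.exists_line hq'
    have hez : e ∈ ngs ρ z := h.z_line hq' he he0 hzR hN.cen hN.ne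
    obtain ⟨n, hn, hyn⟩ : ∃ n ∈ N, y * n = n * y * z := by
      by_contra hcon
      push Not at hcon
      rcases hN.ctr y hyN (fun n hn => (hN.com y hyN n hn).resolve_right (hcon n hn)) with h1 | h1
      · exact hy1 h1
      · exact hyz h1
    apply finrank_span_le _ ![ρ b e, ρ b (ρ b e), ρ n⁻¹ (ρ b e), ρ n⁻¹ (ρ b (ρ b e))]
    intro v hv
    obtain ⟨v₁, v₂, rfl, h1, h2⟩ := decomp (ρ := ρ) y hy2 v
    obtain ⟨c, d, hcd⟩ := h.neg_space hq' he he0 h2
    have hv2 : v₂ ∈ ngs ρ z := by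
      rw [hcd]
      exact Submodule.add_mem _ (Submodule.smul_mem _ _ (ngs_inv hN.cen b hez))
        (Submodule.smul_mem _ _ (ngs_inv hN.cen b (ngs_inv hN.cen b hez)))
    have hv1 : v₁ ∈ ngs ρ z := by
      have := Submodule.sub_mem _ hv hv2
      rwa [add_sub_cancel_right] at this
    have h3 : ρ y (ρ n v₁) = -(ρ n v₁) := by
      rw [← rho_mul, hyn, rho_mul, mem_ngs.mp hv1, rho_mul, map_neg, h1, map_neg]
    obtain ⟨c', d', hcd'⟩ := h.neg_space hq' he he0 h3
    have h4 : v₁ = c' • ρ n⁻¹ (ρ b e) + d' • ρ n⁻¹ (ρ b (ρ b e)) := by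
      have h5 := congrArg (ρ n⁻¹) hcd'
      rw [ρ.inv_self_apply, map_add, map_smul, map_smul] at h5
      exact h5
    rw [h4, hcd]
    have m0 := Submodule.subset_span (R := ZMod 3) (s := Set.range ![ρ b e, ρ b (ρ b e), ρ n⁻¹ (ρ b e),
      ρ n⁻¹ (ρ b (ρ b e))]) ⟨0, rfl⟩
    have m1 := Submodule.subset_span (R := ZMod 3) (s := Set.range ![ρ b e, ρ b (ρ b e), ρ n⁻¹ (ρ b e),
      ρ n⁻¹ (ρ b (ρ b e))]) ⟨1, rfl⟩
    have m2 := Submodule.subset_span (R := ZMod 3) (s := Set.range ![ρ b e, ρ b (ρ b e), ρ n⁻¹ (ρ b e),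
      ρ n⁻¹ (ρ b (ρ b e))]) ⟨2, rfl⟩
    have m3 := Submodule.subset_span (R := ZMod 3) (s := Set.range ![ρ b e, ρ b (ρ b e), ρ n⁻¹ (ρ b e),
      ρ n⁻¹ (ρ b (ρ b e))]) ⟨3, rfl⟩
    exact Submodule.add_mem _ (Submodule.add_mem _ (Submodule.smul_mem _ _ m2) (Submodule.smul_mem _ _ m3))
      (Submodule.add_mem _ (Submodule.smul_mem _ _ m0) (Submodule.smul_mem _ _ m1))
  · -- an element of order four
    obtain ⟨e, he, he0⟩ := h.exists_line hq
    have hsub : ngs ρ z ≤ dd ρ b ⊔ (dd ρ b).map (ρ x⁻¹) := by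
      intro v hv
      have key : ∀ u, ρ (x⁻¹ * cj b x) u - u ∈ dd ρ b ⊔ (dd ρ b).map (ρ x⁻¹) := by
        intro u
        obtain ⟨u', hu'⟩ : ∃ u', u' = ρ b⁻¹ u := ⟨_, rfl⟩
        have e1 : ρ b u' = u := by rw [hu', ρ.self_inv_apply]
        have e2 : ρ (x⁻¹ * cj b x) u - u = ρ x⁻¹ (ρ b (ρ x u') - ρ x u') + -(ρ b u' - u') := by
          have e3 : x⁻¹ * cj b x = x⁻¹ * (b * (x * b⁻¹)) := by unfold cj; group
          rw [e3, rho_mul, rho_mul, rho_mul, ← hu', map_sub, ρ.inv_self_apply, e1]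
          abel
        rw [e2]
        apply Submodule.add_mem
        · exact Submodule.mem_sup_right ⟨_, sub_mem_dd ρ b _, rfl⟩
        · exact Submodule.mem_sup_left (Submodule.neg_mem _ (sub_mem_dd ρ b _))
      -- `(y - 1) (y v + v) = z v - v = v`
      have h1 := key (ρ (x⁻¹ * cj b x) v + v)
      rw [map_add, ← rho_mul, hy2, mem_ngs.mp hv] at h1
      have h2 : -v + ρ (x⁻¹ * cj b x) v - (ρ (x⁻¹ * cj b x) v + v) = v := by
        have h3 : (3 : ZMod 3) • v = 0 := by
          have : (3 : ZMod 3) = 0 := rfl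
          rw [this, zero_smul]
        have h4 : (3 : ZMod 3) • v = v + v + v := by
          have : (3 : ZMod 3) = 1 + 1 + 1 := rfl
          rw [this, add_smul, add_smul, one_smul]
        have h5 : v + v + v = 0 := by rw [← h4, h3]
        calc -v + ρ (x⁻¹ * cj b x) v - (ρ (x⁻¹ * cj b x) v + v) = v - (v + v + v) := by abel
          _ = v := by rw [h5, sub_zero]
      rw [h2] at h1
      exact h1
    have hfin : Module.Finite (ZMod 3) E := Module.Finite.of_finite
    refine (Submodule.finrank_mono hsub).trans ?_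
    refine (Submodule.finrank_add_le_finrank_add_finrank _ _).trans ?_
    have := Submodule.finrank_map_le (ρ x⁻¹) (dd ρ b)
    have h2 := h.dim
    omega

/-- There is an element of order four. -/
theorem EX.exists_four {N : Subgroup G} {z : G} (hN : EX b R N z) : ∃ y ∈ N, y * y = z := by
  by_contra hcon
  push Not at hcon
  have h1 : ∀ x ∈ N, x * x = 1 := fun x hx => (hN.sqs x hx).resolve_right (hcon x hx)
  have hab : ∀ x ∈ N, ∀ y ∈ N, x * y = y * x := by
    intro x hx y hy
    have e := h1 _ (N.mul_mem hx hy)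
    calc x * y = x * (x * y * (x * y)) * y := by rw [e, mul_one]
      _ = (x * x) * (y * x) * (y * y) := by group
      _ = y * x := by rw [h1 x hx, h1 y hy, one_mul, mul_one]
  obtain ⟨m, hm, hmne⟩ := hN.nc
  apply hmne
  rcases hN.ctr m hm (hab m hm) with rfl | rfl
  · rw [mul_one, one_mul]
  · exact hN.cen b

/-- The `-1`-space has dimension four. -/
theorem EX.dim_eq [Finite G] (h : CS ρ R b) (hq : FG b t) {N : Subgroup G} {z : G}
    (hN : EX b R N z) : finrank (ZMod 3) (ngs ρ z) = 4 := by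
  have hle := hN.dim_le h hq
  have hfin : Module.Finite (ZMod 3) E := Module.Finite.of_finite
  have hzR := hN.le hN.mem
  have hge : 3 ≤ finrank (ZMod 3) (ngs ρ z) := by
    obtain ⟨e, he, he0⟩ := h.exists_line hq
    have hez : e ∈ ngs ρ z := h.z_line hq he he0 hzR hN.cen hN.ne
    have hli : LinearIndependent (ZMod 3) (![⟨e, hez⟩, ⟨ρ b e, ngs_inv hN.cen b hez⟩,
        ⟨ρ b (ρ b e), ngs_inv hN.cen b (ngs_inv hN.cen b hez)⟩] : Fin 3 → ngs ρ z) := by
      rw [Fintype.linearIndependent_iff]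
      intro c hc
      rw [Fin.sum_univ_three] at hc
      have hc' : c 0 • e + ρ b (c 1 • e) + ρ b (ρ b (c 2 • e)) = 0 := by
        rw [map_smul, map_smul, map_smul]
        exact congrArg Subtype.val hc
      obtain ⟨h0, h1, h2⟩ := hq.indep h.b3 (Submodule.smul_mem _ _ he) (Submodule.smul_mem _ _ he)
        (Submodule.smul_mem _ _ he) hc'
      intro i
      fin_cases i
      · exact (smul_eq_zero.mp h0).resolve_right he0
      · exact (smul_eq_zero.mp h1).resolve_right he0
      · exact (smul_eq_zero.mp h2).resolve_right he0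
    have := hli.fintype_card_le_finrank
    rwa [Fintype.card_fin] at this
  obtain ⟨y, hy, hy2⟩ := hN.exists_four
  let f : Module.End (ZMod 3) (ngs ρ z) := (ρ y).restrict (fun v hv => ngs_inv hN.cen y hv)
  have hf : f * f = -1 := by
    ext v
    show ρ y (ρ y (v : E)) = -(v : E)
    rw [← rho_mul, hy2]
    exact v.2
  have hdet : LinearMap.det f * LinearMap.det f = (-1) ^ finrank (ZMod 3) (ngs ρ z) := by
    rw [← map_mul, hf]
    have : (-1 : Module.End (ZMod 3) (ngs ρ z)) = (-1 : ZMod 3) • 1 := by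
      rw [neg_smul, one_smul]
    rw [this, LinearMap.det_smul, map_one, mul_one]
  have h3 : finrank (ZMod 3) (ngs ρ z) ≠ 3 := by
    intro h3
    rw [h3] at hdet
    generalize LinearMap.det f = d at hdet
    revert d
    decide
  omega

end Cfsg.Agent.H587.Cubic
end

-- part: H587/CubicG
section
/-!
# S4415, part G: in the extraspecial case `R` is a 2-group
-/

set_option autoImplicit false
set_option linter.unusedSectionVars false
set_option linter.unusedVariables false

namespace Cfsg.Agent.H587.Cubic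

open Module
open scoped commutatorElement

theorem fp_mod {α : Type*} [Finite α] (p : ℕ) [Fact p.Prime] (f : α → α) (hf : ∀ x, f^[p] x = x) :
    Nat.card α ≡ Nat.card {x // f x = x} [MOD p] := by
  classical
  have := Fintype.ofFinite α
  let F : Function.End α := f
  have h1 : F ^ p ^ 1 = 1 := by
    rw [pow_one]
    have key : ∀ n : ℕ, ∀ x, (F ^ n : Function.End α) x = f^[n] x := by
      intro n
      induction n with
      | zero => intro x; rfl
      | succ n ih =>
        intro x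
        rw [pow_succ']
        show f ((F ^ n : Function.End α) x) = _
        rw [ih, Function.iterate_succ_apply']
    funext x
    rw [key, hf]
    rfl
  have h2 := Equiv.Perm.card_fixedPoints_modEq h1
  rw [Nat.card_eq_fintype_card, Nat.card_eq_fintype_card]
  have h3 : Fintype.card (Function.fixedPoints F) = Fintype.card {x // f x = x} :=
    Fintype.card_congr (Equiv.refl _)
  rw [← h3]
  exact h2

theorem sq_add_one_ne : ∀ c : ZMod 3, c * c + 1 ≠ 0 := by decide

variable {G : Type*} [Group G] {E : Type*} [AddCommGroup E] [Module (ZMod 3) E] [Finite E]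
variable {ρ : Representation (ZMod 3) G E} {R : Subgroup G} {b t : G}

theorem cj_iter (v x : G) (n : ℕ) : (cj v)^[n] x = v ^ n * x * (v ^ n)⁻¹ := by
  induction n with
  | zero => simp
  | succ n ih =>
    rw [Function.iterate_succ_apply', ih]
    unfold cj
    rw [pow_succ']; group

/-- The centralizer of `v` in `N`. -/
def cn (N : Subgroup G) (v : G) : Subgroup G where
  carrier := {x | x ∈ N ∧ cj v x = x}
  one_mem' := ⟨N.one_mem, cj_one v⟩
  mul_mem' := by
    rintro a c ⟨h1, h2⟩ ⟨h3, h4⟩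
    exact ⟨N.mul_mem h1 h3, by rw [cj_mul, h2, h4]⟩
  inv_mem' := by
    rintro a ⟨h1, h2⟩
    exact ⟨N.inv_mem h1, by rw [cj_inv, h2]⟩

theorem cn_mod [Finite G] (p : ℕ) [Fact p.Prime] (N : Subgroup G) (v : G) (hv : v ^ p = 1)
    (hN : ∀ x ∈ N, cj v x ∈ N) : Nat.card N ≡ Nat.card (cn N v) [MOD p] := by
  let f : N → N := fun x => ⟨cj v x, hN x x.2⟩
  have hf : ∀ (n : ℕ) (x : N), ((f^[n] x : N) : G) = (cj v)^[n] x := by
    intro n
    induction n with
    | zero => intro x; rfl
    | succ n ih =>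
      intro x
      rw [Function.iterate_succ_apply', Function.iterate_succ_apply', ← ih]
  have h1 := fp_mod p f (by
    intro x
    apply Subtype.ext
    rw [hf, cj_iter, hv]
    simp)
  have e : Nat.card {x // f x = x} = Nat.card (cn N v) := by
    apply Nat.card_congr
    exact
      { toFun := fun x => ⟨x.1, x.1.2, congrArg Subtype.val x.2⟩
        invFun := fun x => ⟨⟨x.1, x.2.1⟩, Subtype.ext x.2.2⟩
        left_inv := fun x => rfl
        right_inv := fun x => rfl }
  rwa [e] at h1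

theorem cn_le (N : Subgroup G) (v : G) : cn N v ≤ N := fun x hx => hx.1

/-- The order of `R`. -/
theorem EX.card_dvd [Finite G] (h : CS ρ R b) (hq : FG b t) {N : Subgroup G} {z : G}
    (hN : EX b R N z) : Nat.card R ∣ 2 ^ 9 * 65 := by
  have hd := hN.dim_eq h hq
  have hzR := hN.le hN.mem
  let f : G →* Module.End (ZMod 3) (ngs ρ z) :=
    { toFun := fun g => (ρ g).restrict (fun v hv => ngs_inv hN.cen g hv)
      map_one' := by
        ext v
        exact rho_one ρ v
      map_mul' := by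
        intro g k
        ext v
        exact rho_mul ρ g k v }
  have hf : Function.Injective f.toHomUnits := by
    rw [injective_iff_map_eq_one]
    intro g hg
    apply h.ngs_faith hq hzR hN.cen hN.ne
    intro v hv
    have h1 : f g = 1 := congrArg Units.val hg
    have h2 := LinearMap.congr_fun h1 ⟨v, hv⟩
    exact congrArg Subtype.val h2
  have h1 := Subgroup.card_dvd_of_injective _ hf
  rw [card_end_units, hd] at h1
  have h2 : ∏ i : Fin 4, (3 ^ 4 - 3 ^ (i : ℕ)) = 3 ^ 6 * (2 ^ 9 * 65) := by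
    rw [Fin.prod_univ_four]; norm_num
  rw [h2] at h1
  have h3 : Nat.card R ∣ 3 ^ 6 * (2 ^ 9 * 65) := (Subgroup.card_subgroup_dvd_card R).trans h1
  apply Nat.Coprime.dvd_of_dvd_mul_left _ h3
  rw [Nat.coprime_comm]
  apply Nat.Coprime.pow_left
  rw [Nat.Prime.coprime_iff_not_dvd Nat.prime_three]
  exact h.r3

theorem EX.card_N [Finite G] (h : CS ρ R b) (hq : FG b t) {N : Subgroup G} {z : G}
    (hN : EX b R N z) : ∃ a ≤ 9, Nat.card N = 2 ^ a := by
  have hp : IsPGroup 2 N := by
    intro x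
    refine ⟨2, ?_⟩
    apply Subtype.ext
    have h1 : (x : G) ^ (2 ^ 2) = (x * x) * (x * x) := by
      have : (2 : ℕ) ^ 2 = 4 := rfl
      rw [this, pow_succ, pow_succ, pow_succ, pow_one]; group
    have h2 : (x : G) ^ (2 ^ 2) = 1 := by
      rw [h1]
      rcases hN.sqs x x.2 with h3 | h3
      · rw [h3, one_mul]
      · rw [h3, hN.sq]
    exact_mod_cast h2
  have : Fact (Nat.Prime 2) := ⟨Nat.prime_two⟩
  obtain ⟨a, ha⟩ := IsPGroup.iff_card.mp hp
  refine ⟨a, ?_, ha⟩
  have h1 : Nat.card N ∣ 2 ^ 9 * 65 := (Subgroup.card_dvd_of_le hN.le).trans (hN.card_dvd h hq)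
  rw [ha] at h1
  have h2 : 2 ^ a ∣ 2 ^ 9 := by
    apply Nat.Coprime.dvd_of_dvd_mul_right _ h1
    apply Nat.Coprime.pow_left
    decide
  exact (Nat.pow_dvd_pow_iff_le_right (by norm_num)).mp h2

/-- No elements of order thirteen. -/
theorem EX.no_thirteen [Finite G] (h : CS ρ R b) (hq : FG b t) {N : Subgroup G} {z : G}
    (hN : EX b R N z) {v : G} (hv : v ^ 13 = 1) : v = 1 := by
  have : Fact (Nat.Prime 13) := ⟨by norm_num⟩
  have hzR := hN.le hN.mem
  have hd := hN.dim_eq h hq
  obtain ⟨a, ha, hcard⟩ := hN.card_N h hq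
  -- `v` centralizes `N`
  have hcn : cn N v = N := by
    have h1 := cn_mod 13 N v hv (fun x hx => hN.nor.conj_mem x hx v)
    have h2 := Subgroup.card_dvd_of_le (cn_le N v)
    rw [hcard] at h1 h2
    obtain ⟨c, hc, hcc⟩ := (Nat.dvd_prime_pow Nat.prime_two).mp h2
    rw [hcc] at h1
    have h3 : c = a := by
      interval_cases a <;> interval_cases c <;> first | rfl | (exfalso; revert h1; decide)
    apply Subgroup.eq_of_le_of_card_ge (cn_le N v)
    rw [hcc, hcard, h3]
  have hcomm : ∀ x ∈ N, v * x = x * v := by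
    intro x hx
    rw [← hcn] at hx
    rw [mul_eq_cj, hx.2]
  -- fixed points on the space
  let F : Submodule (ZMod 3) E := fxs ρ v ⊓ ngs ρ z
  have hFV : F ≤ ngs ρ z := inf_le_right
  have hcardV : Nat.card (ngs ρ z) = 81 := by
    have hfin : Module.Finite (ZMod 3) E := Module.Finite.of_finite
    rw [Module.natCard_eq_pow_finrank (K := ZMod 3), hd, Nat.card_zmod]
    rfl
  have hcardF : Nat.card F = 3 ^ finrank (ZMod 3) F := by
    have hfin : Module.Finite (ZMod 3) E := Module.Finite.of_finite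
    rw [Module.natCard_eq_pow_finrank (K := ZMod 3), Nat.card_zmod]
  have hmod : Nat.card (ngs ρ z) ≡ Nat.card F [MOD 13] := by
    let f : ngs ρ z → ngs ρ z := fun x => ⟨ρ v x, ngs_inv hN.cen v x.2⟩
    have hf : ∀ (n : ℕ) (x : ngs ρ z), ((f^[n] x : ngs ρ z) : E) = ρ (v ^ n) x := by
      intro n
      induction n with
      | zero => intro x; rw [pow_zero, rho_one]; rfl
      | succ n ih =>
        intro x
        rw [Function.iterate_succ_apply', pow_succ', rho_mul, ← ih]
    have h1 := fp_mod 13 f (by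
      intro x
      apply Subtype.ext
      rw [hf, hv, rho_one])
    have e : Nat.card {x // f x = x} = Nat.card F := by
      apply Nat.card_congr
      exact
        { toFun := fun x => ⟨x.1, congrArg Subtype.val x.2, x.1.2⟩
          invFun := fun x => ⟨⟨x.1, x.2.2⟩, Subtype.ext x.2.1⟩
          left_inv := fun x => rfl
          right_inv := fun x => rfl }
    rwa [e] at h1
  have hle : finrank (ZMod 3) F ≤ 4 := by
    have hfin : Module.Finite (ZMod 3) E := Module.Finite.of_finite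
    rw [← hd]
    exact Submodule.finrank_mono hFV
  rw [hcardV, hcardF] at hmod
  have hcases : finrank (ZMod 3) F = 1 ∨ finrank (ZMod 3) F = 4 := by
    generalize finrank (ZMod 3) F = k at *
    interval_cases k <;> first | (left; rfl) | (right; rfl) | (exfalso; revert hmod; decide)
  rcases hcases with h1 | h4
  · exfalso
    obtain ⟨f, hf0, hf⟩ := finrank_eq_one_iff'.mp h1
    obtain ⟨y, hy, hy2⟩ := hN.exists_four
    have hyf : ρ y f ∈ F := by
      refine ⟨?_, ngs_inv hN.cen y f.2.2⟩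
      show ρ v (ρ y f) = ρ y f
      rw [← rho_mul, hcomm y hy, rho_mul]
      rw [show ρ v (f : E) = f from f.2.1]
    obtain ⟨c, hc⟩ := hf ⟨ρ y f, hyf⟩
    have hc' : c • (f : E) = ρ y f := congrArg Subtype.val hc
    have h5 : ρ z (f : E) = (c * c) • (f : E) := by
      rw [← hy2, rho_mul, ← hc', map_smul, ← hc', smul_smul]
    have h6 : ρ z (f : E) = -f := f.2.2
    rw [h6] at h5
    have hf0' : (f : E) ≠ 0 := fun h0 => hf0 (Subtype.ext h0)
    have h7 : (c * c + 1) • (f : E) = 0 := by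
      rw [add_smul, ← h5, one_smul, neg_add_cancel]
    rcases smul_eq_zero.mp h7 with h8 | h8
    · exact sq_add_one_ne c h8
    · exact hf0' h8
  · apply h.ngs_faith hq hzR hN.cen hN.ne
    have hfin : Module.Finite (ZMod 3) E := Module.Finite.of_finite
    have h5 : F = ngs ρ z := Submodule.eq_of_le_of_finrank_eq hFV (by rw [h4, hd])
    intro w hw
    rw [← h5] at hw
    exact hw.1

/-- `R` is a 2-group. -/
theorem EX.two_group [Finite G] (h : CS ρ R b) (hq : FG b t) {N : Subgroup G} {z : G}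
    (hN : EX b R N z) : IsPGroup 2 R := by
  have f2 : Fact (Nat.Prime 2) := ⟨Nat.prime_two⟩
  have f3 : Fact (Nat.Prime 3) := ⟨Nat.prime_three⟩
  have f5 : Fact (Nat.Prime 5) := ⟨Nat.prime_five⟩
  have f13 : Fact (Nat.Prime 13) := ⟨by norm_num⟩
  have h13 : Nat.card R ∣ 2 ^ 9 * 5 := by
    have h1 : Nat.card R ∣ (2 ^ 9 * 5) * 13 := hN.card_dvd h hq
    apply Nat.Coprime.dvd_of_dvd_mul_right _ h1
    rw [Nat.coprime_comm, Nat.Prime.coprime_iff_not_dvd (by norm_num)]
    intro h2
    obtain ⟨v, hv⟩ := exists_prime_orderOf_dvd_card' 13 h2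
    have h3 : v ^ 13 = 1 := by rw [← hv]; exact pow_orderOf_eq_one v
    have h4 : (v : G) = 1 := hN.no_thirteen h hq (by
      have := congrArg Subtype.val h3
      exact_mod_cast this)
    have h5 : v = 1 := Subtype.ext h4
    rw [h5, orderOf_one] at hv
    omega
  have hbp : IsPGroup 3 (Subgroup.zpowers b) := by
    rw [IsPGroup.iff_card]
    refine ⟨1, ?_⟩
    rw [Nat.card_zpowers, pow_one]
    apply orderOf_eq_prime _ h.b_ne
    rw [pow_succ, pow_two]
    exact h.b3
  have hnorm : ∀ c ∈ Subgroup.zpowers b, ∀ u ∈ R, c * u * c⁻¹ ∈ R :=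
    fun c _ u hu => h.nor.conj_mem u hu c
  obtain ⟨S₂, ⟨T₂, hT₂⟩, hinv₂⟩ :=
    Cfsg.Agent.Lib.PGroupCoprimeAction.exists_invariant_sylow hbp h.r3 hnorm 2
  obtain ⟨S₅, ⟨T₅, hT₅⟩, hinv₅⟩ :=
    Cfsg.Agent.Lib.PGroupCoprimeAction.exists_invariant_sylow hbp h.r3 hnorm 5
  -- the orders
  have hi₂ : (T₂ : Subgroup R).index ∣ 5 := by
    have h1 : (T₂ : Subgroup R).index ∣ 2 ^ 9 * 5 := (Subgroup.index_dvd_card _).trans h13
    apply Nat.Coprime.dvd_of_dvd_mul_left _ h1
    apply Nat.Coprime.pow_right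
    rw [Nat.coprime_comm, Nat.Prime.coprime_iff_not_dvd Nat.prime_two]
    exact T₂.not_dvd_index
  have hi₅ : (T₅ : Subgroup R).index ∣ 2 ^ 9 := by
    have h1 : (T₅ : Subgroup R).index ∣ 2 ^ 9 * 5 := (Subgroup.index_dvd_card _).trans h13
    apply Nat.Coprime.dvd_of_dvd_mul_right _ h1
    rw [Nat.coprime_comm, Nat.Prime.coprime_iff_not_dvd Nat.prime_five]
    exact T₅.not_dvd_index
  obtain ⟨a₂, ha₂⟩ := IsPGroup.iff_card.mp T₂.isPGroup'
  obtain ⟨a₅, ha₅⟩ := IsPGroup.iff_card.mp T₅.isPGroup'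
  have hm₂ := Subgroup.card_mul_index (T₂ : Subgroup R)
  have hm₅ := Subgroup.card_mul_index (T₅ : Subgroup R)
  have hcop : Nat.Coprime (Nat.card (T₂ : Subgroup R)) (Nat.card (T₅ : Subgroup R)) := by
    rw [ha₂, ha₅]
    apply Nat.Coprime.pow
    decide
  have hcopi : Nat.Coprime (T₅ : Subgroup R).index (T₂ : Subgroup R).index := by
    apply Nat.Coprime.coprime_dvd_left hi₅
    apply Nat.Coprime.coprime_dvd_right hi₂
    apply Nat.Coprime.pow_left
    decide
  have hprod : Nat.card (T₂ : Subgroup R) * Nat.card (T₅ : Subgroup R) = Nat.card R := by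
    have e1 : Nat.card (T₂ : Subgroup R) = (T₅ : Subgroup R).index := by
      apply Nat.dvd_antisymm
      · apply Nat.Coprime.dvd_of_dvd_mul_left hcop
        rw [hm₅]
        exact Subgroup.card_subgroup_dvd_card _
      · apply Nat.Coprime.dvd_of_dvd_mul_right hcopi
        rw [hm₂]
        exact Subgroup.index_dvd_card _
    rw [e1, mul_comm, hm₅]
  have hcompl := Subgroup.isComplement'_of_coprime hprod hcop
  -- `|T₅|` divides 5
  have hc5 : Nat.card (T₅ : Subgroup R) ∣ 5 := by
    have h1 : Nat.card (T₅ : Subgroup R) ∣ 2 ^ 9 * 5 := (Subgroup.card_subgroup_dvd_card _).trans h13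
    apply Nat.Coprime.dvd_of_dvd_mul_left _ h1
    rw [ha₅]
    apply Nat.Coprime.pow
    decide
  have hcS5 : Nat.card S₅ = Nat.card (T₅ : Subgroup R) := by
    rw [← hT₅]
    exact Nat.card_congr (Subgroup.equivMapOfInjective _ _ R.subtype_injective).symm.toEquiv
  -- `b` centralizes `S₅`
  have hb5 : ∀ u ∈ S₅, b * u = u * b := by
    have h1 := cn_mod 3 S₅ b (by rw [pow_succ, pow_two]; exact h.b3)
      (fun x hx => hinv₅ b (Subgroup.mem_zpowers b) x hx)
    have h2 := Subgroup.card_dvd_of_le (cn_le S₅ b)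
    have h3 : Nat.card (cn S₅ b) = Nat.card S₅ := by
      rw [← hcS5] at hc5
      rcases (Nat.dvd_prime Nat.prime_five).mp hc5 with h4 | h4
      · rw [h4] at h2 ⊢
        exact Nat.dvd_one.mp h2
      · rw [h4] at h1 h2 ⊢
        rcases (Nat.dvd_prime Nat.prime_five).mp h2 with h5 | h5
        · rw [h5] at h1
          exact absurd h1 (by decide)
        · exact h5
    have h4 : cn S₅ b = S₅ := Subgroup.eq_of_le_of_card_ge (cn_le S₅ b) h3.ge
    intro u hu
    rw [← h4] at hu
    rw [mul_eq_cj, hu.2]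
  -- `R ≤ S₂`
  have hRS : R ≤ S₂ := by
    rw [← h.comm, Subgroup.commutator_le]
    intro r hr c hc
    obtain ⟨⟨s, u⟩, hsu⟩ := hcompl.existsUnique (⟨r, hr⟩ : R) |>.exists
    have hr' : r = (s : R) * (u : R) := by
      have := congrArg Subtype.val hsu
      exact this.symm
    have hsS : ((s : R) : G) ∈ S₂ := by rw [← hT₂]; exact ⟨s, s.2, rfl⟩
    have huS : ((u : R) : G) ∈ S₅ := by rw [← hT₅]; exact ⟨u, u.2, rfl⟩
    have hcu : c * ((u : R) : G) = ((u : R) : G) * c := by
      obtain ⟨k, rfl⟩ := Subgroup.mem_zpowers_iff.mp hc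
      exact ((show Commute b ((u : R) : G) from hb5 _ huS).zpow_left k).eq
    have e : ⁅r, c⁆ = ((s : R) : G) * (c * ((s : R) : G)⁻¹ * c⁻¹) := by
      rw [commutatorElement_def, hr']
      generalize ((s : R) : G) = s' at *
      generalize ((u : R) : G) = u' at *
      calc s' * u' * c * (s' * u')⁻¹ * c⁻¹ = s' * (u' * c) * u'⁻¹ * s'⁻¹ * c⁻¹ := by group
        _ = s' * (c * u') * u'⁻¹ * s'⁻¹ * c⁻¹ := by rw [hcu]
        _ = s' * (c * s'⁻¹ * c⁻¹) := by group
    rw [e]
    exact S₂.mul_mem hsS (hinv₂ c hc _ (S₂.inv_mem hsS))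
  have hS₂ : IsPGroup 2 S₂ := by
    rw [← hT₂]
    exact T₂.isPGroup'.map R.subtype
  exact hS₂.to_le hRS

end Cfsg.Agent.H587.Cubic
end

-- part: H587/CubicH
section
/-!
# S4415, part H: there is an elementary abelian normal subgroup not centralized by `b`
-/

set_option autoImplicit false
set_option linter.unusedSectionVars false
set_option linter.unusedVariables false

namespace Cfsg.Agent.H587.Cubic

open Module
open scoped commutatorElement

variable {G : Type*} [Group G] {E : Type*} [AddCommGroup E] [Module (ZMod 3) E] [Finite E]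
variable {ρ : Representation (ZMod 3) G E} {R : Subgroup G} {b t : G}

theorem CS.normal_of [Finite G] (h : CS ρ R b) (A : Subgroup G) (hR : ∀ r ∈ R, ∀ a ∈ A, cj r a ∈ A)
    (hb : ∀ a ∈ A, cj b a ∈ A) : A.Normal := by
  have h1 : R ⊔ Subgroup.zpowers b ≤ Subgroup.normalizer (A : Set G) := by
    rw [sup_le_iff]
    constructor
    · intro r hr
      exact Subgroup.mem_normalizer_fintype (fun a ha => hR r hr a ha)
    · rw [Subgroup.zpowers_le]
      exact Subgroup.mem_normalizer_fintype (fun a ha => hb a ha)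
  rw [h.gen, top_le_iff] at h1
  exact Subgroup.normalizer_eq_top_iff.mp h1

/-- Products of powers of three commuting elements. -/
def abc (u v w : G) (h1 : u * v = v * u) (h2 : u * w = w * u) (h3 : v * w = w * v) : Subgroup G where
  carrier := {a | ∃ i j k : ℤ, a = u ^ i * v ^ j * w ^ k}
  one_mem' := ⟨0, 0, 0, by simp⟩
  mul_mem' := by
    rintro _ _ ⟨i, j, k, rfl⟩ ⟨i', j', k', rfl⟩
    refine ⟨i + i', j + j', k + k', ?_⟩
    have c1 : Commute (v ^ j) (u ^ i') := (show Commute v u from h1.symm).zpow_zpow _ _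
    have c2 : Commute (w ^ k) (u ^ i') := (show Commute w u from h2.symm).zpow_zpow _ _
    have c3 : Commute (w ^ k) (v ^ j') := (show Commute w v from h3.symm).zpow_zpow _ _
    rw [zpow_add, zpow_add, zpow_add]
    calc u ^ i * v ^ j * w ^ k * (u ^ i' * v ^ j' * w ^ k')
        = u ^ i * v ^ j * (w ^ k * u ^ i') * v ^ j' * w ^ k' := by group
      _ = u ^ i * (v ^ j * u ^ i') * (w ^ k * v ^ j') * w ^ k' := by rw [c2.eq]; group
      _ = u ^ i * u ^ i' * (v ^ j * v ^ j') * (w ^ k * w ^ k') := by rw [c1.eq, c3.eq]; group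
  inv_mem' := by
    rintro _ ⟨i, j, k, rfl⟩
    refine ⟨-i, -j, -k, ?_⟩
    have c1 : Commute (v ^ (-j)) (u ^ (-i)) := (show Commute v u from h1.symm).zpow_zpow _ _
    have c2 : Commute (w ^ (-k)) (u ^ (-i)) := (show Commute w u from h2.symm).zpow_zpow _ _
    have c3 : Commute (w ^ (-k)) (v ^ (-j)) := (show Commute w v from h3.symm).zpow_zpow _ _
    rw [mul_inv_rev, mul_inv_rev, ← zpow_neg, ← zpow_neg, ← zpow_neg, c1.eq, ← mul_assoc, c2.eq,
      mul_assoc, c3.eq, ← mul_assoc]

/-- A four-group of `R` normalized by `R` up to a central involution. -/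
theorem CS.lift_four [Finite G] (h : CS ρ R b) {z w : G} (hzR : z ∈ R) (hz : ∀ g, g * z = z * g)
    (hz2 : z * z = 1) (hw : FG b w) (hwR : w ∈ R) (hr : ∀ r ∈ R, cj r w = w ∨ cj r w = w * z) :
    ∃ A : Subgroup G, A.Normal ∧ A ≤ R ∧ NC b A ∧ ∀ x ∈ A, x * x = 1 := by
  have hb := h.b3
  have c12 := hw.comm12 hb
  have hw1 := (hw.next hb).sq
  have hw1R : cj b w ∈ R := cj_mem h.nor b hwR
  have hzb : ∀ g, cj g z = z := by
    intro g; unfold cj; rw [hz g, mul_inv_cancel_right]
  let A := abc w (cj b w) z c12 (hz _) (hz _)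
  have hwA : w ∈ A := ⟨1, 0, 0, by simp⟩
  have hw1A : cj b w ∈ A := ⟨0, 1, 0, by simp⟩
  have hzA : z ∈ A := ⟨0, 0, 1, by simp⟩
  have hcjz : ∀ (g x : G) (k : ℤ), cj g (x ^ k) = (cj g x) ^ k := by
    intro g x k; unfold cj; rw [conj_zpow]
  refine ⟨A, ?_, ?_, ⟨w, hwA, ?_⟩, ?_⟩
  · apply h.normal_of
    · intro r hrR a ha
      obtain ⟨i, j, k, rfl⟩ := ha
      rw [cj_mul, cj_mul, hcjz, hcjz, hcjz, hzb]
      have h1 : cj r w ∈ A := by
        rcases hr r hrR with h1 | h1
        · rw [h1]; exact hwA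
        · rw [h1]; exact A.mul_mem hwA hzA
      have h2 : cj r (cj b w) ∈ A := by
        have e : cj r (cj b w) = cj b (cj (b⁻¹ * r * b) w) := by
          rw [cj_cj, cj_cj]; congr 1; group
        have hr' : b⁻¹ * r * b ∈ R := by
          have := h.nor.conj_mem r hrR b⁻¹
          rwa [inv_inv] at this
        rw [e]
        rcases hr _ hr' with h1 | h1
        · rw [h1]; exact hw1A
        · rw [h1, cj_mul, hzb]; exact A.mul_mem hw1A hzA
      exact A.mul_mem (A.mul_mem (A.zpow_mem h1 i) (A.zpow_mem h2 j)) (A.zpow_mem hzA k)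
    · intro a ha
      obtain ⟨i, j, k, rfl⟩ := ha
      rw [cj_mul, cj_mul, hcjz, hcjz, hcjz, hzb, ← hw.mul_eq hb]
      exact A.mul_mem (A.mul_mem (A.zpow_mem hw1A i) (A.zpow_mem (A.mul_mem hwA hw1A) j))
        (A.zpow_mem hzA k)
  · rintro _ ⟨i, j, k, rfl⟩
    exact R.mul_mem (R.mul_mem (R.zpow_mem hwR i) (R.zpow_mem hw1R j)) (R.zpow_mem hzR k)
  · intro h1
    rw [mul_eq_cj] at h1
    exact hw.ne12 hb (mul_right_cancel h1)
  · rintro _ ⟨i, j, k, rfl⟩
    have c1 : Commute (cj b w ^ j) (w ^ i) := (show Commute (cj b w) w from c12.symm).zpow_zpow _ _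
    have c2 : Commute (z ^ k) (w ^ i) := (show Commute z w from (hz w).symm).zpow_zpow _ _
    have c3 : Commute (z ^ k) (cj b w ^ j) := (show Commute z (cj b w) from (hz _).symm).zpow_zpow _ _
    have hs : ∀ (x : G) (k : ℤ), x * x = 1 → x ^ k * x ^ k = 1 := by
      intro x k hx
      rw [← (Commute.refl x).mul_zpow, hx, one_zpow]
    calc w ^ i * cj b w ^ j * z ^ k * (w ^ i * cj b w ^ j * z ^ k)
        = w ^ i * cj b w ^ j * (z ^ k * w ^ i) * cj b w ^ j * z ^ k := by group
      _ = w ^ i * (cj b w ^ j * w ^ i) * (z ^ k * cj b w ^ j) * z ^ k := by rw [c2.eq]; group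
      _ = w ^ i * w ^ i * (cj b w ^ j * cj b w ^ j) * (z ^ k * z ^ k) := by rw [c1.eq, c3.eq]; group
      _ = 1 := by rw [hs w i hw.sq, hs _ j hw1, hs z k hz2, mul_one, mul_one]

/-- `R` acts trivially on `N` modulo `z`, if `R` is a 2-group. -/
theorem EX.cj_cases [Finite G] {N : Subgroup G} {z : G} (hN : EX b R N z) (hR : R.Normal)
    (h2 : IsPGroup 2 R) : ∀ r ∈ R, ∀ x ∈ N, cj r x = x ∨ cj r x = x * z := by
  have f2 : Fact (Nat.Prime 2) := ⟨Nat.prime_two⟩
  have hNn := hN.nor
  have hle : ⁅N, R⁆ ≤ N := Subgroup.commutator_le_left N R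
  have hne : ⁅N, R⁆ ≠ N := by
    intro heq
    have hnil : Group.IsNilpotent R := h2.isNilpotent
    obtain ⟨n, hn⟩ := (Subgroup.isNilpotent_iff_lowerCentralSeries R).mp hnil
    have key : ∀ k : ℕ, N ≤ R.lowerCentralSeries k := by
      intro k
      induction k with
      | zero =>
        rw [Subgroup.lowerCentralSeries_zero]
        exact hN.le
      | succ k ih =>
        rw [← heq, Subgroup.lowerCentralSeries_succ]
        exact Subgroup.commutator_mono ih le_rfl
    have h3 := key n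
    rw [hn, le_bot_iff] at h3
    apply hN.ne
    have := hN.mem
    rwa [h3, Subgroup.mem_bot] at this
  have hcen := hN.min _ inferInstance hle hne
  intro r hr x hx
  have h1 : ⁅x⁻¹, r⁆ ∈ ⁅N, R⁆ := Subgroup.commutator_mem_commutator (N.inv_mem hx) hr
  have h3 := hN.ctr _ (hle h1) (fun y _ => (hcen y _ h1).symm)
  have e : cj r x = x * ⁅x⁻¹, r⁆ := by
    rw [commutatorElement_def]; unfold cj; group
  rcases h3 with h3 | h3
  · left; rw [e, h3, mul_one]
  · right; rw [e, h3]

/-- There is an elementary abelian normal subgroup not centralized by `b`. -/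
theorem CS.exists_elem [Finite G] [Group.IsSolvable G] (h : CS ρ R b) (hq : FG b t) (htR : t ∈ R) :
    ∃ A : Subgroup G, A.Normal ∧ A ≤ R ∧ NC b A ∧ ∀ x ∈ A, x * x = 1 := by
  have hb := h.b3
  by_contra hE
  have hRnc : NC b R := ⟨t, htR, fun h1 => hq.ne12 hb (by
    rw [mul_eq_cj] at h1; exact mul_right_cancel h1)⟩
  obtain ⟨N, hNC, hN⟩ := h.minimal hq R h.nor le_rfl hRnc
  rcases hN with ⟨h1, h2, h3⟩ | ⟨z, hN⟩
  · exact hE ⟨N, h1, hNC, h2, h3⟩
  have h2R := hN.two_group h hq
  have hzR := hN.le hN.mem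
  have hzb : ∀ g, cj g z = z := by
    intro g; unfold cj; rw [hN.cen g, mul_inv_cancel_right]
  have hcj := hN.cj_cases h.nor h2R
  -- no four-group
  have hno : ∀ w ∈ R, FG b w → ¬ ∀ r ∈ R, cj r w = w ∨ cj r w = w * z := by
    intro w hwR hw hr
    exact hE (h.lift_four hzR hN.cen hN.sq hw hwR hr)
  -- the elements `y`
  have hy : ∀ (M : Subgroup G), EX b R M z → ∃ y ∈ M, y * y = z ∧ y * cj b y * cj b (cj b y) = 1 ∧
      ∀ r ∈ R, cj r y = y ∨ cj r y = y * z := by
    intro M hM
    obtain ⟨x, hx, hy1, hyz⟩ := hM.exists_y h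
    have hyM : x⁻¹ * cj b x ∈ M := M.mul_mem (M.inv_mem hx) (hM.nor.conj_mem x hx b)
    have hr := fun r hr => hM.cj_cases h.nor h2R r hr _ hyM
    refine ⟨_, hyM, ?_, prod_y hb, hr⟩
    rcases hM.sqs _ hyM with h4 | h4
    · exact absurd hr (hno _ (hM.le hyM) ⟨hy1, h4, prod_y hb⟩)
    · exact h4
  obtain ⟨y, hyN, hy2, hyp, hyr⟩ := hy N hN
  have hy1N : cj b y ∈ N := cj_mem hN.nor b hyN
  have hy12 : (cj b y) * (cj b y) = z := by rw [← cj_mul, hy2, hzb]
  have hy22 : (cj b (cj b y)) * (cj b (cj b y)) = z := by rw [← cj_mul, hy12, hzb]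
  -- `y` and `cj b y` do not commute
  have hnc : y * cj b y ≠ cj b y * y := by
    intro hc
    have e1 : (y * cj b y) * (y * cj b y) = 1 := by
      calc (y * cj b y) * (y * cj b y) = y * (cj b y * y) * cj b y := by group
        _ = y * (y * cj b y) * cj b y := by rw [hc]
        _ = (y * y) * (cj b y * cj b y) := by group
        _ = 1 := by rw [hy2, hy12, hN.sq]
    have e2 : cj b (cj b y) = (y * cj b y)⁻¹ := (inv_eq_of_mul_eq_one_right hyp).symm
    rw [e2] at hy22
    apply hN.ne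
    calc z = (y * cj b y)⁻¹ * (y * cj b y)⁻¹ := hy22.symm
      _ = ((y * cj b y) * (y * cj b y))⁻¹ := by group
      _ = 1 := by rw [e1, inv_one]
  have hy1r : ∀ r ∈ R, cj r (cj b y) = cj b y ∨ cj r (cj b y) = cj b y * z :=
    fun r hr => hN.cj_cases h.nor h2R r hr _ hy1N
  -- conjugation within `N`
  have hcyy1 : cj y (cj b y) = cj b y * z := by
    rcases hy1r y (hN.le hyN) with h1 | h1
    · exfalso; apply hnc; rw [mul_eq_cj, h1]
    · exact h1
  have hcy1y : cj (cj b y) y = y * z := by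
    rcases hyr _ (hN.le hy1N) with h1 | h1
    · exfalso; apply hnc; rw [mul_eq_cj (cj b y), h1]
    · exact h1
  have hself : ∀ x : G, cj x x = x := by intro x; unfold cj; group
  have hzz : ∀ x : G, x * z * z = x := by intro x; rw [mul_assoc, hN.sq, mul_one]
  -- the centralizer of `y` and `cj b y`
  let C : Subgroup G :=
    { carrier := {c | c ∈ R ∧ cj c y = y ∧ cj c (cj b y) = cj b y}
      one_mem' := ⟨R.one_mem, by unfold cj; group, by unfold cj; group⟩
      mul_mem' := by
        rintro a c ⟨h1, h2, h3⟩ ⟨h4, h5, h6⟩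
        exact ⟨R.mul_mem h1 h4, by rw [← cj_cj, h5, h2], by rw [← cj_cj, h6, h3]⟩
      inv_mem' := by
        rintro a ⟨h1, h2, h3⟩
        refine ⟨R.inv_mem h1, ?_, ?_⟩
        · conv_lhs => rw [← h2]
          rw [cj_cj]; unfold cj; group
        · conv_lhs => rw [← h3]
          rw [cj_cj]; unfold cj; group }
  have hCR : C ≤ R := fun c hc => hc.1
  have hCn : C.Normal := by
    apply h.normal_of
    · intro r hr c hc
      obtain ⟨hc1, hc2, hc3⟩ := hc
      have hr' := R.inv_mem hr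
      refine ⟨cj_mem h.nor r hc1, ?_, ?_⟩
      · have e : cj (cj r c) y = cj r (cj c (cj r⁻¹ y)) := by
          rw [cj_cj, cj_cj]; rfl
        have e' : ∀ x, cj r (cj r⁻¹ x) = x := by intro x; rw [cj_cj]; unfold cj; group
        rw [e]
        rcases hyr r⁻¹ hr' with h4 | h4
        · rw [h4, hc2]
          have := e' y
          rwa [h4] at this
        · rw [h4, cj_mul, hc2, hzb, ← h4]
          exact e' y
      · have e : cj (cj r c) (cj b y) = cj r (cj c (cj r⁻¹ (cj b y))) := by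
          generalize cj b y = x
          rw [cj_cj, cj_cj]; rfl
        have e' : ∀ x, cj r (cj r⁻¹ x) = x := by intro x; rw [cj_cj]; unfold cj; group
        rw [e]
        rcases hy1r r⁻¹ hr' with h4 | h4
        · rw [h4, hc3]
          have := e' (cj b y)
          rwa [h4] at this
        · rw [h4, cj_mul, hc3, hzb, ← h4]
          exact e' _
    · intro c hc
      obtain ⟨hc1, hc2, hc3⟩ := hc
      have ebc : ∀ x, cj (cj b c) (cj b x) = cj b (cj c x) := by
        intro x; rw [cj_cj, cj_cj]; congr 1; unfold cj; group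
      have e1 : cj (cj b c) (cj b y) = cj b y := by rw [ebc, hc2]
      have e2 : cj (cj b c) (cj b (cj b y)) = cj b (cj b y) := by rw [ebc, hc3]
      refine ⟨cj_mem h.nor b hc1, ?_, e1⟩
      have e3 : y = (cj b y * cj b (cj b y))⁻¹ := by
        rw [eq_inv_iff_mul_eq_one, ← mul_assoc]; exact hyp
      rw [e3, cj_inv, cj_mul, e2, e1]
  -- `C` is not `{1, z}`
  have hCz : ∃ c ∈ C, c ≠ 1 ∧ c ≠ z := by
    by_contra hcon
    push Not at hcon
    -- every element of `R` is in `N`
    have hRN : R ≤ N := by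
      intro r hr
      have key : ∃ n ∈ N, n * r ∈ C := by
        rcases hyr r hr with h1 | h1 <;> rcases hy1r r hr with h4 | h4
        · exact ⟨1, N.one_mem, R.mul_mem R.one_mem hr, by rw [one_mul, h1], by rw [one_mul, h4]⟩
        · refine ⟨y, hyN, R.mul_mem (hN.le hyN) hr, ?_, ?_⟩
          · rw [← cj_cj, h1, hself]
          · rw [← cj_cj, h4, cj_mul, hcyy1, hzb, hzz]
        · refine ⟨cj b y, hy1N, R.mul_mem (hN.le hy1N) hr, ?_, ?_⟩
          · rw [← cj_cj, h1, cj_mul, hcy1y, hzb, hzz]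
          · rw [← cj_cj, h4, hself]
        · refine ⟨y * cj b y, N.mul_mem hyN hy1N, R.mul_mem (R.mul_mem (hN.le hyN) (hN.le hy1N)) hr,
            ?_, ?_⟩
          · rw [← cj_cj, ← cj_cj, h1, cj_mul, hcy1y, hzb, hzz, hself]
          · rw [← cj_cj, ← cj_cj, h4, cj_mul, hself, hzb, cj_mul, hcyy1, hzb, hzz]
      obtain ⟨n, hn, hnr⟩ := key
      have h1 : n * r ∈ N := by
        by_cases h1 : n * r = 1
        · rw [h1]; exact N.one_mem
        · rw [hcon _ hnr h1]; exact hN.mem
      have h5 := N.mul_mem (N.inv_mem hn) h1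
      rwa [inv_mul_cancel_left] at h5
    exact hno t htR hq (fun r hr => hN.cj_cases h.nor h2R r hr _ (hRN htR))
  obtain ⟨c, hcC, hc1, hcz⟩ := hCz
  -- `b` does not centralize `C`
  have hCnc : NC b C := by
    by_contra hcon
    unfold NC at hcon
    push Not at hcon
    have h1 := h.central hCn hcon
    exact hcz (h.central_eq hq (hCR hcC) (fun g => h1 g c hcC) hc1 hzR hN.cen hN.ne)
  obtain ⟨N₂, hN₂C, hN₂⟩ := h.minimal hq C hCn hCR hCnc
  rcases hN₂ with ⟨h1, h3, h4⟩ | ⟨z₂, hN₂⟩
  · exact hE ⟨N₂, h1, hN₂C.trans hCR, h3, h4⟩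
  have hz₂ : z₂ = z := h.central_eq hq (hN₂.le hN₂.mem) hN₂.cen hN₂.ne hzR hN.cen hN.ne
  rw [hz₂] at hN₂
  obtain ⟨u, huN, hu2, hup, hur⟩ := hy N₂ hN₂
  have huC := hN₂C huN
  have hu1C : cj b u ∈ C := cj_mem hCn b huC
  have hu2C : cj b (cj b u) ∈ C := cj_mem hCn b hu1C
  -- commuting
  have hcom : ∀ c ∈ C, c * y = y * c ∧ c * cj b y = cj b y * c := by
    intro c hc
    exact ⟨by rw [mul_eq_cj, hc.2.1], by rw [mul_eq_cj, hc.2.2]⟩
  have e2 : cj b (cj b y) = (y * cj b y)⁻¹ := (inv_eq_of_mul_eq_one_right hyp).symm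
  have hw : FG b (y * u) := by
    refine ⟨?_, ?_, ?_⟩
    · intro h1
      have h3 : y = u⁻¹ := mul_eq_one_iff_eq_inv.mp h1
      have h4 : y ∈ C := by rw [h3]; exact C.inv_mem huC
      exact hnc (hcom y h4).2
    · calc y * u * (y * u) = y * (u * y) * u := by group
        _ = y * (y * u) * u := by rw [(hcom u huC).1]
        _ = (y * y) * (u * u) := by group
        _ = 1 := by rw [hy2, hu2, hN.sq]
    · rw [cj_mul, cj_mul]
      have hcy2 : ∀ c ∈ C, c * cj b (cj b y) = cj b (cj b y) * c := by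
        intro c hc
        have h5 : c * (y * cj b y) = (y * cj b y) * c := by
          rw [← mul_assoc, (hcom c hc).1, mul_assoc, (hcom c hc).2, mul_assoc]
        rw [e2]
        exact ((show Commute c (y * cj b y) from h5).inv_right).eq
      calc y * u * (cj b y * cj b u) * (cj b (cj b y) * cj b (cj b u))
          = y * (u * cj b y) * (cj b u * cj b (cj b y)) * cj b (cj b u) := by group
        _ = y * (cj b y * u) * (cj b (cj b y) * cj b u) * cj b (cj b u) := by
            rw [(hcom u huC).2, hcy2 _ hu1C]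
        _ = y * cj b y * (u * cj b (cj b y)) * cj b u * cj b (cj b u) := by group
        _ = y * cj b y * (cj b (cj b y) * u) * cj b u * cj b (cj b u) := by rw [hcy2 _ huC]
        _ = (y * cj b y * cj b (cj b y)) * (u * cj b u * cj b (cj b u)) := by group
        _ = 1 := by rw [hyp, hup, one_mul]
  refine hno (y * u) (R.mul_mem (hN.le hyN) (hN₂.le huN)) hw ?_
  intro r hr
  rw [cj_mul]
  rcases hyr r hr with h1 | h1 <;> rcases hur r hr with h4 | h4 <;> rw [h1, h4]
  · left; rfl
  · right; group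
  · right
    calc y * z * u = y * (z * u) := by group
      _ = y * (u * z) := by rw [hN.cen u]
      _ = y * u * z := by group
  · left
    calc y * z * (u * z) = y * (z * u) * z := by group
      _ = y * (u * z) * z := by rw [hN.cen u]
      _ = y * u * (z * z) := by group
      _ = y * u := by rw [hN.sq, mul_one]

end Cfsg.Agent.H587.Cubic
end

-- part: H587/CubicI
section
/-!
# S4415, part I: solvable permutation groups generated by the conjugates of a 3-cycle

A transitive solvable group that is the normal closure of an element acting as a 3-cycle has degree at most four.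
-/

set_option autoImplicit false
set_option linter.unusedSectionVars false
set_option linter.unusedVariables false

namespace Cfsg.Agent.H587.Cubic

open scoped Pointwise

theorem perm_small {G X : Type*} [Group G] [Group.IsSolvable G] [MulAction G X] [Finite X]
    [MulAction.IsPretransitive G X] (b : G) (x₁ x₂ x₃ : X) (h12 : b • x₁ = x₂) (h23 : b • x₂ = x₃)
    (h31 : b • x₃ = x₁) (hne : x₁ ≠ x₂)
    (hfix : ∀ x, x ≠ x₁ → x ≠ x₂ → x ≠ x₃ → b • x = x)
    (htop : ∀ N : Subgroup G, N.Normal → b ∈ N → N = ⊤) : Nat.card X ≤ 4 := by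
  classical
  have := Fintype.ofFinite X
  have hne23 : x₂ ≠ x₃ := by
    intro h
    apply hne
    apply MulAction.injective b
    show b • x₁ = b • x₂
    rw [h12, h23, h]
  have hne13 : x₁ ≠ x₃ := by
    intro h
    apply hne
    rw [← h12]
    nth_rewrite 2 [h]
    rw [h31]
  have hmoved : ∀ x, b • x ≠ x → x = x₁ ∨ x = x₂ ∨ x = x₃ := by
    intro x hx
    by_contra hcon
    push Not at hcon
    exact hx (hfix x hcon.1 hcon.2.1 hcon.2.2)
  -- the action is primitive
  have hprim : MulAction.IsPreprimitive G X := by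
    constructor
    intro B hB
    by_cases hsub : B.Subsingleton
    · exact Or.inl hsub
    right
    rw [Set.not_subsingleton_iff] at hsub
    -- every conjugate of `b` fixes `B`
    have hconj : ∀ g : G, (g * b * g⁻¹) • B = B := by
      intro g
      have hB' : MulAction.IsBlock G (g⁻¹ • B) := hB.translate g⁻¹
      have key : b • (g⁻¹ • B) = g⁻¹ • B := by
        rcases hB'.smul_eq_or_disjoint b with h | h
        · exact h
        exfalso
        have hnt : (g⁻¹ • B).Nontrivial := hsub.image (MulAction.injective g⁻¹)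
        obtain ⟨u, hu, v, hv, huv⟩ := hnt
        have hdis : ∀ p ∈ g⁻¹ • B, ∀ q ∈ g⁻¹ • B, b • p ≠ q := by
          intro p hp q hq hpq
          exact Set.disjoint_left.mp h (Set.smul_mem_smul_set hp) (hpq ▸ hq)
        have hu' := hmoved u (hdis u hu u hu)
        have hv' := hmoved v (hdis v hv v hv)
        have huv' := hdis u hu v hv
        have hvu' := hdis v hv u hu
        rcases hu' with rfl | rfl | rfl <;> rcases hv' with rfl | rfl | rfl
        · exact huv rfl
        · exact huv' h12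
        · exact hvu' h31
        · exact hvu' h12
        · exact huv rfl
        · exact huv' h23
        · exact huv' h31
        · exact hvu' h23
        · exact huv rfl
      rw [mul_smul, mul_smul, key, smul_inv_smul]
    have hst : MulAction.stabilizer G B = ⊤ := by
      have h1 : Subgroup.normalClosure ({b} : Set G) = ⊤ :=
        htop _ Subgroup.normalClosure_normal (Subgroup.subset_normalClosure rfl)
      rw [eq_top_iff, ← h1]
      unfold Subgroup.normalClosure
      rw [Subgroup.closure_le]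
      intro c hc
      rw [Group.mem_conjugatesOfSet_iff] at hc
      obtain ⟨d, hd, hdc⟩ := hc
      rw [Set.mem_singleton_iff] at hd
      subst hd
      rw [isConj_iff] at hdc
      obtain ⟨g, rfl⟩ := hdc
      exact hconj g
    obtain ⟨u, hu, v, hv, huv⟩ := hsub
    rw [Set.eq_univ_iff_forall]
    intro x
    obtain ⟨g, rfl⟩ := MulAction.exists_smul_eq G u x
    have h2 : g • B = B := by
      have : g ∈ MulAction.stabilizer G B := by rw [hst]; trivial
      exact this
    rw [← h2]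
    exact Set.smul_mem_smul_set hu
  -- the image
  let H := (MulAction.toPermHom G X).range
  have hprimH : MulAction.IsPreprimitive H X := by
    let φ : G → H := (MulAction.toPermHom G X).rangeRestrict
    let f : X →ₑ[φ] X := { toFun := id, map_smul' := fun g x => rfl }
    have hφ : Function.Surjective φ := (MulAction.toPermHom G X).rangeRestrict_surjective
    exact (MulAction.isPreprimitive_congr (f := f) hφ Function.bijective_id).mp hprim
  have hcyc : (MulAction.toPermHom G X b).IsThreeCycle := by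
    rw [← card_support_eq_three_iff]
    have : (MulAction.toPermHom G X b).support = {x₁, x₂, x₃} := by
      ext x
      rw [Equiv.Perm.mem_support]
      simp only [Finset.mem_insert, Finset.mem_singleton]
      constructor
      · exact hmoved x
      · rintro (rfl | rfl | rfl)
        · show b • x ≠ x
          rw [h12]; exact hne.symm
        · show b • x ≠ x
          rw [h23]; exact hne23.symm
        · show b • x ≠ x
          rw [h31]; exact hne13
    rw [this, Finset.card_eq_three]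
    exact ⟨x₁, x₂, x₃, hne, hne13, hne23, rfl⟩
  have halt := Equiv.Perm.alternatingGroup_le_of_isPreprimitive_of_isThreeCycle_mem hprimH hcyc
    ⟨b, rfl⟩
  -- solvable
  have hsolH : Group.IsSolvable H :=
    Group.isSolvable_of_surjective (MulAction.toPermHom G X).rangeRestrict_surjective
  have hsolA : Group.IsSolvable (alternatingGroup X) :=
    Group.isSolvable_of_isSolvable_injective (Subgroup.inclusion_injective halt)
  have hsolP : Group.IsSolvable (Equiv.Perm X) := by
    apply Group.isSolvable_of_ker_le_range (alternatingGroup X).subtype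
      (Equiv.Perm.sign : Equiv.Perm X →* ℤˣ)
    rw [Subgroup.range_subtype]
    exact le_rfl
  by_contra hcon
  push Not at hcon
  apply Equiv.Perm.not_isSolvable X _ hsolP
  rw [Cardinal.mk_fintype, ← Nat.card_eq_fintype_card]
  exact_mod_cast hcon

end Cfsg.Agent.H587.Cubic
end

-- part: H587/CubicJ
section
/-!
# S4415, part J: the monomial structure
-/

set_option autoImplicit false
set_option linter.unusedSectionVars false
set_option linter.unusedVariables false

namespace Cfsg.Agent.H587.Cubic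

open Module Cfsg.Agent.OddOrderLocal.Thm34Weights Cfsg.Agent.H587.OrbitWeights
open scoped commutatorElement

attribute [local instance] wtAction

universe u w

/-- An elementary abelian 2-group is diagonalizable. -/
theorem iSup_two {G : Type*} [Group G] {E : Type*} [AddCommGroup E] [Module (ZMod 3) E] [Finite E]
    (ρ : Representation (ZMod 3) G E) (A : Subgroup G) [Finite A] (hA : (Nat.card A : ZMod 3) ≠ 0)
    (hcomm : ∀ a ∈ A, ∀ b ∈ A, a * b = b * a) (hA2 : ∀ a ∈ A, a * a = 1) :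
    ⨆ χ : A → ZMod 3, wt ρ A χ = ⊤ := by
  have hfin : Module.Finite (ZMod 3) E := Module.Finite.of_finite
  have h2 : ∀ χ : A → ZMod 3, wt ρ A χ = ⨅ k : A, End.maxGenEigenspace (ρ k) (χ k) :=
    fun χ => wt_eq ρ A hA χ
  simp only [h2]
  apply Module.End.iSup_iInf_maxGenEigenspace_eq_top_of_iSup_maxGenEigenspace_eq_top_of_commute
    (fun k : A => ρ (k : G))
  · intro i j _
    exact commute_of_comm ρ A hcomm i j
  · intro k
    rw [eq_top_iff]
    intro v _
    obtain ⟨v₁, v₂, rfl, h3, h4⟩ := decomp (ρ := ρ) (k : G) (hA2 k k.2) v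
    apply Submodule.add_mem
    · apply Submodule.mem_iSup_of_mem (1 : ZMod 3)
      apply Module.End.eigenspace_le_maxGenEigenspace
      rw [Module.End.mem_eigenspace_iff, one_smul]
      exact h3
    · apply Submodule.mem_iSup_of_mem (-1 : ZMod 3)
      apply Module.End.eigenspace_le_maxGenEigenspace
      rw [Module.End.mem_eigenspace_iff, neg_smul, one_smul]
      exact h4

/-- Monomial data. -/
structure MD {G : Type u} [Group G] {E : Type w} [AddCommGroup E] [Module (ZMod 3) E]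
    (ρ : Representation (ZMod 3) G E) (R : Subgroup G) (b : G) where
  X : Type u
  [act : MulAction G X]
  [fin : Finite X]
  [trans : MulAction.IsPretransitive G X]
  v : X → E
  s : G → X → ZMod 3
  U : Submodule (ZMod 3) E
  U' : Submodule (ZMod 3) E
  t : G
  x₁ : X
  hv : ∀ (g : G) (x : X), ρ g (v x) = s g x • v (g • x)
  ne : ∀ x : X, v x ≠ 0
  inf : U ⊓ U' = ⊥
  sup : U ⊔ U' = ⊤
  inv : ∀ g : G, ∀ w ∈ U, ρ g w ∈ U
  triv : ∀ g : G, ∀ w ∈ U', ρ g w = w
  faith : ∀ g : G, (∀ x : X, ρ g (v x) = v x) → g = 1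
  faithU : ∀ g : G, (∀ w ∈ U, ρ g w = w) → g = 1
  irr : ∀ N : Submodule (ZMod 3) E, N ≤ U → (∀ g : G, ∀ w ∈ N, ρ g w ∈ N) → N = ⊥ ∨ N = U
  hq : FG b t
  tR : t ∈ R
  tx : ∀ x : X, t • x = x
  tx' : ∀ x : X, cj b t • x = x
  b3 : b • b • b • x₁ = x₁
  b1 : b • x₁ ≠ x₁
  bx : ∀ x : X, x ≠ x₁ → x ≠ b • x₁ → x ≠ b • b • x₁ → b • x = x
  s1 : s t x₁ = 1
  s2 : s t (b • x₁) = -1
  s3 : s t (b • b • x₁) = -1

section

variable {G : Type u} [Group G] {E : Type w} [AddCommGroup E] [Module (ZMod 3) E] [Finite E]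
variable {ρ : Representation (ZMod 3) G E} {R : Subgroup G} {b : G}

theorem CS.exists_md [Finite G] (h : CS ρ R b) (A : Subgroup G) (hAn : A.Normal)
    (hAR : A ≤ R) (hnc : NC b A) (hA2 : ∀ x ∈ A, x * x = 1) : Nonempty (MD ρ R b) := by
  classical
  have hb := h.b3
  have hfin : Module.Finite (ZMod 3) E := Module.Finite.of_finite
  have hcomm : ∀ x ∈ A, ∀ y ∈ A, x * y = y * x := by
    intro x hx y hy
    have e := hA2 _ (A.mul_mem hx hy)
    calc x * y = x * (x * y * (x * y)) * y := by rw [e, mul_one]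
      _ = (x * x) * (y * x) * (y * y) := by group
      _ = y * x := by rw [hA2 x hx, hA2 y hy, one_mul, mul_one]
  have hA : (Nat.card A : ZMod 3) ≠ 0 := by
    intro h0
    rw [ZMod.natCast_eq_zero_iff] at h0
    exact h.r3 (h0.trans (Subgroup.card_dvd_of_le hAR))
  -- the four-group
  obtain ⟨n, hn, hnne⟩ := hnc
  have hcn : cj b n ∈ A := hAn.conj_mem n hn b
  obtain ⟨t, ht⟩ : ∃ t, t = n⁻¹ * cj b n := ⟨_, rfl⟩
  have htA : t ∈ A := by rw [ht]; exact A.mul_mem (A.inv_mem hn) hcn
  have hq : FG b t := by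
    refine ⟨?_, hA2 t htA, ?_⟩
    · intro h1
      apply hnne
      rw [ht, inv_mul_eq_one] at h1
      rw [mul_eq_cj, ← h1]
    · rw [ht]; exact prod_y hb
  have ht1A : cj b t ∈ A := hAn.conj_mem t htA b
  obtain ⟨e, he, he0⟩ := h.exists_line hq
  -- the first weight
  have hχ : ∀ a : A, ∃ c : ZMod 3, ρ a e = c • e := by
    intro a
    rcases h.scalar hq he he0 (hcomm a a.2 t htA) (hcomm a a.2 _ ht1A) with h1 | h1
    · exact ⟨1, by rw [h1, one_smul]⟩
    · exact ⟨-1, by rw [h1, neg_smul, one_smul]⟩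
  choose χ hχ' using hχ
  have heχ : e ∈ wt ρ A χ := mem_wt.mpr hχ'
  have hl1 : wt ρ A χ ≤ l1 ρ b t := by
    intro v hv
    rw [mem_wt] at hv
    have c1 : χ ⟨t, htA⟩ = 1 := by
      have h1 := hχ' ⟨t, htA⟩
      have h2 : ρ t e = e := he.1
      have h3 : (χ ⟨t, htA⟩ - 1) • e = 0 := by
        rw [sub_smul, ← h1, one_smul]
        exact sub_eq_zero.mpr h2
      exact sub_eq_zero.mp ((smul_eq_zero.mp h3).resolve_right he0)
    have c2 : χ ⟨cj b t, ht1A⟩ = -1 := by
      have h1 := hχ' ⟨cj b t, ht1A⟩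
      have h2 : ρ (cj b t) e = -e := he.2
      have h3 : (χ ⟨cj b t, ht1A⟩ + 1) • e = 0 := by
        rw [add_smul, ← h1, one_smul]
        show ρ (cj b t) e + e = 0
        rw [h2, neg_add_cancel]
      exact eq_neg_of_add_eq_zero_left ((smul_eq_zero.mp h3).resolve_right he0)
    constructor
    · have h1 := hv ⟨t, htA⟩
      rw [c1, one_smul] at h1
      exact h1
    · have h1 := hv ⟨cj b t, ht1A⟩
      rw [c2, neg_smul, one_smul] at h1
      exact h1
  let X := MulAction.orbit G χ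
  have hwt : ∀ x : X, ∃ v ∈ wt ρ A x.1, v ≠ 0 ∧ ∀ w ∈ wt ρ A x.1, ∃ c : ZMod 3, w = c • v := by
    rintro ⟨_, g, rfl⟩
    refine ⟨ρ g e, smul_mem_wt heχ g, ?_, ?_⟩
    · intro h0
      apply he0
      have := ρ.inv_self_apply g e
      rw [h0, map_zero] at this
      exact this.symm
    · intro w hw
      have h1 := smul_mem_wt hw g⁻¹
      have h2 : g⁻¹ • (fun m => m • χ) g = χ := inv_smul_smul g χ
      rw [h2] at h1
      obtain ⟨c, hc⟩ := h.line hq he he0 (hl1 h1)
      refine ⟨c, ?_⟩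
      have h3 := ρ.self_inv_apply g w
      rw [hc, map_smul] at h3
      exact h3.symm
  choose v hvw hv0 hvl using hwt
  have hs : ∀ (g : G) (x : X), ∃ c : ZMod 3, ρ g (v x) = c • v (g • x) := by
    intro g x
    exact hvl (g • x) _ (smul_mem_wt (hvw x) g)
  choose s hs using hs
  -- the subspaces
  have hind := indep_wt ρ A hA hcomm
  let O : Set (A → ZMod 3) := MulAction.orbit G χ
  have hOinv : ∀ (g : G), ∀ ψ ∈ O, g • ψ ∈ O := by
    intro g ψ hψ
    exact MulAction.mem_orbit_of_mem_orbit g hψ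
  have hOcinv : ∀ (g : G), ∀ ψ ∈ Oᶜ, g • ψ ∈ Oᶜ := by
    intro g ψ hψ hgψ
    apply hψ
    have := hOinv g⁻¹ _ hgψ
    rwa [inv_smul_smul] at this
  let U := us ρ A O
  let U' := us ρ A Oᶜ
  have hinf : U ⊓ U' = ⊥ := by
    rw [← disjoint_iff]
    exact hind.disjoint_biSup_biSup disjoint_compl_right
  have hsup : U ⊔ U' = ⊤ := by
    rw [eq_top_iff, ← iSup_two ρ A hA hcomm hA2, iSup_le_iff]
    intro ψ
    by_cases hψ : ψ ∈ O
    · exact le_sup_of_le_left (le_iSup₂_of_le (f := fun (ψ' : A → ZMod 3) (_ : ψ' ∈ O) => wt ρ A ψ')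
        ψ hψ le_rfl)
    · exact le_sup_of_le_right (le_iSup₂_of_le (f := fun (ψ' : A → ZMod 3) (_ : ψ' ∈ Oᶜ) => wt ρ A ψ')
        ψ hψ le_rfl)
  have hwU : ∀ ψ ∈ O, wt ρ A ψ ≤ U := fun ψ hψ =>
    le_iSup₂_of_le (f := fun (ψ' : A → ZMod 3) (_ : ψ' ∈ O) => wt ρ A ψ') ψ hψ le_rfl
  have hU : ∀ g, ∀ w ∈ U, ρ g w ∈ U := fun g w hw => smul_mem_us g (hOinv g) hw
  have hU' : ∀ g, ∀ w ∈ U', ρ g w ∈ U' := fun g w hw => smul_mem_us g (hOcinv g) hw
  have heU : e ∈ U := hwU χ (MulAction.mem_orbit_self χ) heχ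
  have hddU : dd ρ b ≤ U := by
    intro w hw
    obtain ⟨c, d, f, rfl⟩ := h.dd_line hq he he0 w hw
    exact Submodule.add_mem _ (Submodule.add_mem _ (Submodule.smul_mem _ _ heU)
      (Submodule.smul_mem _ _ (hU b _ heU))) (Submodule.smul_mem _ _ (hU b _ (hU b _ heU)))
  have htriv : ∀ g, ∀ w ∈ U', ρ g w = w := by
    apply h.trivial_on U' hU'
    intro w hw
    have h1 : ρ b w - w ∈ U ⊓ U' := ⟨hddU (sub_mem_dd ρ b w), Submodule.sub_mem _ (hU' b w hw) hw⟩
    rw [hinf, Submodule.mem_bot] at h1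
    exact sub_eq_zero.mp h1
  have hfaithU : ∀ g, (∀ w ∈ U, ρ g w = w) → g = 1 := by
    intro g hg
    apply h.faith
    intro w
    have hw : w ∈ U ⊔ U' := by rw [hsup]; trivial
    obtain ⟨w₁, hw₁, w₂, hw₂, rfl⟩ := Submodule.mem_sup.mp hw
    rw [map_add, hg w₁ hw₁, htriv g w₂ hw₂]
  have hspan : ∀ N : Submodule (ZMod 3) E, (∀ x : X, v x ∈ N) → U ≤ N := by
    intro N hN
    refine iSup₂_le ?_
    intro ψ hψ w hw
    obtain ⟨c, rfl⟩ := hvl ⟨ψ, hψ⟩ w hw
    exact N.smul_mem _ (hN _)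
  have hfaith : ∀ g, (∀ x, ρ g (v x) = v x) → g = 1 := by
    intro g hg
    apply hfaithU
    intro w hw
    exact hspan (fxs ρ g) hg hw
  -- irreducible
  have hirr : ∀ N : Submodule (ZMod 3) E, N ≤ U → (∀ g, ∀ w ∈ N, ρ g w ∈ N) → N = ⊥ ∨ N = U := by
    intro N hNU hN
    by_cases hbot : N = ⊥
    · exact Or.inl hbot
    right
    apply le_antisymm hNU
    let ρN : Representation (ZMod 3) G N :=
      { toFun := fun g => (ρ g).restrict (fun w hw => hN g w hw)
        map_one' := by ext w; exact rho_one ρ w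
        map_mul' := by intro g k; ext w; exact rho_mul ρ g k w }
    have hfinN : Module.Finite (ZMod 3) N := Module.Finite.of_finite
    have hex : ∃ ψ : A → ZMod 3, wt ρN A ψ ≠ ⊥ := by
      by_contra hcon
      push Not at hcon
      have h1 := iSup_two ρN A hA hcomm hA2
      rw [iSup_congr hcon, iSup_bot] at h1
      apply hbot
      rw [eq_bot_iff]
      intro w hw
      have h2 : (⟨w, hw⟩ : N) ∈ (⊥ : Submodule (ZMod 3) N) := by rw [h1]; trivial
      rw [Submodule.mem_bot] at h2 ⊢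
      exact congrArg Subtype.val h2
    obtain ⟨ψ, hψ⟩ := hex
    obtain ⟨w, hw, hw0⟩ := Submodule.exists_mem_ne_zero_of_ne_bot hψ
    rw [mem_wt] at hw
    have hw' : (w : E) ∈ wt ρ A ψ := by
      rw [mem_wt]
      intro a
      exact congrArg Subtype.val (hw a)
    have hwne : (w : E) ≠ 0 := fun h0 => hw0 (Subtype.ext h0)
    have hψO : ψ ∈ O := by
      by_contra hψO
      have h1 : (w : E) ∈ U ⊓ U' := ⟨hNU w.2,
        le_iSup₂_of_le (f := fun (ψ' : A → ZMod 3) (_ : ψ' ∈ Oᶜ) => wt ρ A ψ') ψ hψO le_rfl hw'⟩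
      rw [hinf, Submodule.mem_bot] at h1
      exact hwne h1
    obtain ⟨c, hc⟩ := hvl ⟨ψ, hψO⟩ _ hw'
    have hvψ : v ⟨ψ, hψO⟩ ∈ N := by
      have h1 : (w : E) ∈ N := w.2
      rcases zmod3_cases c with rfl | rfl | rfl
      · rw [zero_smul] at hc
        exact absurd hc hwne
      · rw [one_smul] at hc
        rwa [hc] at h1
      · rw [neg_smul, one_smul] at hc
        rw [hc] at h1
        have := N.neg_mem h1
        rwa [neg_neg] at this
    apply hspan
    intro x
    obtain ⟨g, hg⟩ := MulAction.exists_smul_eq G (⟨ψ, hψO⟩ : X) x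
    have h1 := hN g _ hvψ
    rw [hs, hg] at h1
    have h2 : s g ⟨ψ, hψO⟩ ≠ 0 := by
      intro h0
      have h3 := hs g ⟨ψ, hψO⟩
      rw [h0, zero_smul] at h3
      have := ρ.inv_self_apply g (v ⟨ψ, hψO⟩)
      rw [h3, map_zero] at this
      exact hv0 _ this.symm
    exact (N.smul_mem_iff h2).mp h1
  -- the action of `A` is trivial
  have hAtriv : ∀ a ∈ A, ∀ x : X, a • x = x := by
    intro a ha x
    apply Subtype.ext
    show a • x.1 = x.1
    funext k
    rw [wt_smul_def]
    have h1 : MulAut.conjNormal a⁻¹ k = k := by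
      apply Subtype.ext
      rw [MulAut.conjNormal_apply, inv_inv]
      rw [mul_assoc, hcomm _ k.2 _ ha, ← mul_assoc, inv_mul_cancel, one_mul]
    rw [h1]
  -- signs of `t`
  have hvals : ∀ (a : G) (ha : a ∈ A) (x : X), s a x = x.1 ⟨a, ha⟩ := by
    intro a ha x
    have h1 := hs a x
    rw [hAtriv a ha] at h1
    have h2 := mem_wt.mp (hvw x) ⟨a, ha⟩
    have h3 : (s a x - x.1 ⟨a, ha⟩) • v x = 0 := by
      rw [sub_smul, ← h1]
      exact sub_eq_zero.mpr h2
    exact sub_eq_zero.mp ((smul_eq_zero.mp h3).resolve_right (hv0 x))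
  let x₁ : X := ⟨χ, MulAction.mem_orbit_self χ⟩
  have hval : ∀ (x : X) (w : E) (c : ZMod 3), w ≠ 0 → w ∈ wt ρ A x.1 → ρ t w = c • w → s t x = c := by
    intro x w c hw0 hw hc
    rw [hvals t htA x]
    have h2 := mem_wt.mp hw ⟨t, htA⟩
    have h2' : ρ t w = x.1 ⟨t, htA⟩ • w := h2
    have h3 : (x.1 ⟨t, htA⟩ - c) • w = 0 := by
      rw [sub_smul, ← hc, ← h2', sub_self]
    exact sub_eq_zero.mp ((smul_eq_zero.mp h3).resolve_right hw0)
  have hinj : ∀ w : E, w ≠ 0 → ρ b w ≠ 0 := by
    intro w hw h0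
    apply hw
    have := ρ.inv_self_apply b w
    rw [h0, map_zero] at this
    exact this.symm
  have hs1 : s t x₁ = 1 := hval x₁ e 1 he0 heχ (by rw [one_smul]; exact (hq.vals hb he).1)
  have hs2 : s t (b • x₁) = -1 := hval (b • x₁) (ρ b e) (-1) (hinj e he0) (smul_mem_wt heχ b)
    (by rw [neg_smul, one_smul]; exact (hq.vals2 hb he).1)
  have hs3 : s t (b • b • x₁) = -1 := hval (b • b • x₁) (ρ b (ρ b e)) (-1) (hinj _ (hinj e he0))
    (smul_mem_wt (smul_mem_wt heχ b) b) (by rw [neg_smul, one_smul]; exact (hq.vals3 hb he).1)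
  have hbx : ∀ x : X, x ≠ x₁ → x ≠ b • x₁ → x ≠ b • b • x₁ → b • x = x := by
    intro x h1 h2 h3
    by_contra hcon
    apply hv0 x
    have hdis := hind x.1
    have hcw : ∀ ψ : A → ZMod 3, ψ ≠ x.1 → wt ρ A ψ ≤ cw ρ A x.1 := by
      intro ψ hψ
      exact le_iSup₂_of_le (f := fun (ψ' : A → ZMod 3) (_ : ψ' ≠ x.1) => wt ρ A ψ') ψ hψ le_rfl
    have hdis' : wt ρ A x.1 ⊓ cw ρ A x.1 = ⊥ := by
      rw [← disjoint_iff]; exact hdis
    have h4 : v x ∈ cw ρ A x.1 := by
      obtain ⟨c, d, f, hcdf⟩ := h.dd_line hq he he0 _ (sub_mem_dd ρ b (v x))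
      have h5 : v x = ρ b (v x) - (c • e + d • ρ b e + f • ρ b (ρ b e)) := by
        rw [← hcdf]; abel
      rw [h5]
      apply Submodule.sub_mem
      · exact hcw _ (fun h6 => hcon (Subtype.ext h6)) (smul_mem_wt (hvw x) b)
      · apply Submodule.add_mem
        · apply Submodule.add_mem
          · exact Submodule.smul_mem _ _ (hcw χ (fun h6 => h1 (Subtype.ext h6.symm)) heχ)
          · exact Submodule.smul_mem _ _ (hcw (b • χ) (fun h6 => h2 (Subtype.ext h6.symm))
              (smul_mem_wt heχ b))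
        · exact Submodule.smul_mem _ _ (hcw (b • b • χ) (fun h6 => h3 (Subtype.ext h6.symm))
            (smul_mem_wt (smul_mem_wt heχ b) b))
    have h5 : v x ∈ wt ρ A x.1 ⊓ cw ρ A x.1 := ⟨hvw x, h4⟩
    rw [hdis', Submodule.mem_bot] at h5
    exact h5
  exact ⟨{
    X := X
    v := v
    s := s
    U := U
    U' := U'
    t := t
    x₁ := x₁
    hv := hs
    ne := hv0
    inf := hinf
    sup := hsup
    inv := hU
    triv := htriv
    faith := hfaith
    faithU := hfaithU
    irr := hirr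
    hq := hq
    tR := hAR htA
    tx := hAtriv t htA
    tx' := hAtriv _ ht1A
    b3 := by rw [← mul_smul, ← mul_smul, hb, one_smul]
    b1 := by
      intro h1
      rw [h1, hs1] at hs2
      exact absurd hs2 (by decide)
    bx := hbx
    s1 := hs1
    s2 := hs2
    s3 := hs3 }⟩

end

end Cfsg.Agent.H587.Cubic
end
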