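import Mathlib
import Cfsg.Prelude.Def_Transfer
import Cfsg.Agent.Transfer.ExtraspecialTwo
set_option linter.all false

/-!
# Extraspecial 2-groups are determined by the order and the number of solutions of `x ^ 2 = 1`

`card_sq` : a group `E` with `E' ≤ Z(E)`, `|Z(E)| = 2` and `|E| = 2 ^ (2 m + 1)` has `2 ^ (2 m) ± 2 ^ m` elements
with `x ^ 2 = 1`.
`iso_of_card` : two such groups with the same order and the same count are isomorphic.
-/

set_option autoImplicit false

namespace Cfsg.Agent.H587.ExtraTwoCount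

open Subgroup
open scoped commutatorElement
open Cfsg.Agent.Transfer.CentralComm Cfsg.Agent.Transfer.Extraspecial
open Cfsg.Agent.Transfer.ExtraspecialTwo

/-- The number of solutions of `x ^ 2 = 1`. -/
noncomputable def numSq (E : Type*) [Group E] : ℕ := Nat.card {x : E // x ^ 2 = 1}

/-- The number of elements with `x ^ 2 ≠ 1`. -/
noncomputable def numNSq (E : Type*) [Group E] : ℕ := Nat.card {x : E // x ^ 2 ≠ 1}

theorem numSq_add_numNSq (E : Type*) [Group E] [Finite E] : numSq E + numNSq E = Nat.card E := by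
  classical
  have := Fintype.ofFinite E
  unfold numSq numNSq
  rw [Nat.card_eq_fintype_card, Nat.card_eq_fintype_card, Nat.card_eq_fintype_card]
  exact Fintype.card_subtype_compl (fun x : E => x ^ 2 = 1) ▸ by
    have := Fintype.card_subtype_le (fun x : E => x ^ 2 = 1)
    omega

theorem numSq_congr {E E' : Type*} [Group E] [Group E'] (e : E ≃* E') : numSq E = numSq E' := by
  unfold numSq
  refine Nat.card_congr (e.toEquiv.subtypeEquiv ?_)
  intro a
  constructor
  · intro h
    show (e a) ^ 2 = 1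
    rw [← map_pow, h, map_one]
  · intro h
    have h' : (e a) ^ 2 = 1 := h
    rw [← map_pow, map_eq_one_iff e e.injective] at h'
    exact h'

variable {E : Type*} [Group E]

/-- The square of an element in coordinates. -/
theorem coord_sq (h : CentralTwo E) (x y : E) (i j : Bool)
    (c : Subgroup.centralizer ({x, y} : Set E)) :
    (coord x y (i, j, c)) ^ 2 =
      carry (x ^ 2) i i * carry (y ^ 2) j j * carry ⁅y, x⁆ j i * (c : E) ^ 2 := by
  rw [sq, coord_mul h]
  simp only [Bool.xor_self]
  simp only [coord, bpow, coe_mul]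
  simp [sq]

/-- Counting the solutions of `x ^ 2 = 1` in coordinates, the case of a pair of elements of square 1. -/
theorem numSq_inv_pair [Finite E] (h : CentralTwo E) {x y : E} (hxy : ⁅x, y⁆ ≠ 1) (hx : x ^ 2 = 1)
    (hy : y ^ 2 = 1) :
    numSq E = 3 * numSq (Subgroup.centralizer ({x, y} : Set E)) +
      numNSq (Subgroup.centralizer ({x, y} : Set E)) := by
  classical
  have hyx : ⁅y, x⁆ ≠ 1 := by
    rw [← commutatorElement_inv]
    exact inv_ne_one.mpr hxy
  have := Fintype.ofFinite E
  have hC : CentralTwo (Subgroup.centralizer ({x, y} : Set E)) := h.centralizer hxy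
  have key : ∀ (i j : Bool) (c : Subgroup.centralizer ({x, y} : Set E)),
      (coord x y (i, j, c)) ^ 2 = 1 ↔ if (i && j) = true then c ^ 2 ≠ 1 else c ^ 2 = 1 := by
    intro i j c
    rw [coord_sq h, hx, hy]
    have hone : ∀ k : Bool, carry (1 : E) k k = 1 := by intro k; cases k <;> simp [carry]
    rw [hone, hone, one_mul, one_mul]
    have hc : ((c : E) ^ 2 = 1) ↔ c ^ 2 = 1 := by
      constructor
      · intro h; exact Subtype.ext h
      · intro h; simpa using congrArg Subtype.val h
    have hcc : (c : E) ^ 2 ∈ center E := h.sq_mem _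
    cases i <;> cases j <;> simp only [carry, Bool.and_true, Bool.and_false, Bool.and_self,
      Bool.false_eq_true, if_false, if_true, one_mul, hc]
    rw [ne_eq, ← hc]
    constructor
    · intro h1 h2
      rw [h2, mul_one] at h1
      exact hyx h1
    · intro h1
      rw [h.eq_of_ne_one (h.comm_mem y x) hcc hyx h1, ← sq]
      exact h.sq_eq_one hcc
  unfold numSq numNSq
  have e0 := Nat.card_congr ((Equiv.ofBijective _ (coord_bijective h hxy)).subtypeEquiv
    (p := fun t => (coord x y t) ^ 2 = 1) (q := fun g => g ^ 2 = 1) (fun a => Iff.rfl))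
  rw [← e0]
  rw [Nat.card_eq_fintype_card, Fintype.card_subtype, Finset.card_filter]
  rw [Fintype.sum_prod_type]
  simp only [Fintype.sum_prod_type, key, Fintype.sum_bool]
  simp only [Bool.and_true, Bool.and_false, Bool.and_self, Bool.false_eq_true, if_false, if_true]
  rw [Nat.card_eq_fintype_card, Nat.card_eq_fintype_card, Fintype.card_subtype, Fintype.card_subtype,
    Finset.card_filter, Finset.card_filter]
  ring

/-- Counting the solutions of `x ^ 2 = 1` in coordinates, the case of a pair of elements of order 4. -/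
theorem numSq_four_pair [Finite E] (h : CentralTwo E) {x y : E} (hxy : ⁅x, y⁆ ≠ 1) (hx : x ^ 2 ≠ 1)
    (hy : y ^ 2 ≠ 1) :
    numSq E = numSq (Subgroup.centralizer ({x, y} : Set E)) +
      3 * numNSq (Subgroup.centralizer ({x, y} : Set E)) := by
  classical
  have hyx : ⁅y, x⁆ ≠ 1 := by
    rw [← commutatorElement_inv]
    exact inv_ne_one.mpr hxy
  have := Fintype.ofFinite E
  have hC : CentralTwo (Subgroup.centralizer ({x, y} : Set E)) := h.centralizer hxy
  have hx' : x ^ 2 = ⁅y, x⁆ := h.eq_of_ne_one (h.sq_mem x) (h.comm_mem y x) hx hyx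
  have hy' : y ^ 2 = ⁅y, x⁆ := h.eq_of_ne_one (h.sq_mem y) (h.comm_mem y x) hy hyx
  have hzz : ⁅y, x⁆ * ⁅y, x⁆ = 1 := by
    rw [← sq]; exact h.sq_eq_one (h.comm_mem y x)
  have key : ∀ (i j : Bool) (c : Subgroup.centralizer ({x, y} : Set E)),
      (coord x y (i, j, c)) ^ 2 = 1 ↔ if (i || j) = true then c ^ 2 ≠ 1 else c ^ 2 = 1 := by
    intro i j c
    rw [coord_sq h, hx', hy']
    have hc : ((c : E) ^ 2 = 1) ↔ c ^ 2 = 1 := by
      constructor
      · intro h; exact Subtype.ext h
      · intro h; simpa using congrArg Subtype.val h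
    have hcc : (c : E) ^ 2 ∈ center E := h.sq_mem _
    have key2 : ⁅y, x⁆ * (c : E) ^ 2 = 1 ↔ ¬ c ^ 2 = 1 := by
      rw [← hc.not]
      constructor
      · intro h1 h2
        rw [h2, mul_one] at h1
        exact hyx h1
      · intro h1
        rw [h.eq_of_ne_one (h.comm_mem y x) hcc hyx h1, ← sq]
        exact h.sq_eq_one hcc
    cases i <;> cases j <;> simp [carry, hc, key2, hzz]
  unfold numSq numNSq
  have e0 := Nat.card_congr ((Equiv.ofBijective _ (coord_bijective h hxy)).subtypeEquiv
    (p := fun t => (coord x y t) ^ 2 = 1) (q := fun g => g ^ 2 = 1) (fun a => Iff.rfl))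
  rw [← e0]
  rw [Nat.card_eq_fintype_card, Fintype.card_subtype, Finset.card_filter]
  rw [Fintype.sum_prod_type]
  simp only [Fintype.sum_prod_type, key, Fintype.sum_bool]
  simp only [Bool.or_true, Bool.or_false, Bool.or_self, Bool.false_eq_true, if_false, if_true]
  rw [Nat.card_eq_fintype_card, Nat.card_eq_fintype_card, Fintype.card_subtype, Fintype.card_subtype,
    Finset.card_filter, Finset.card_filter]
  ring

theorem numSq_of_card_two {E : Type*} [Group E] [Finite E] (hc : Nat.card E = 2) : numSq E = 2 := by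
  unfold numSq
  refine Eq.trans (Nat.card_congr (Equiv.subtypeUnivEquiv ?_)) hc
  intro x
  have h1 : x ^ Nat.card E = 1 := pow_card_eq_one'
  rwa [hc] at h1

/-- `|{x : x ^ 2 = 1}| = 2 ^ (2 m) ± 2 ^ m`. -/
theorem card_sq (m : ℕ) : ∀ {E : Type*} [Group E] [Finite E], CentralTwo E →
    Nat.card E = 2 ^ (2 * m + 1) → numSq E = 2 ^ (2 * m) + 2 ^ m ∨ (1 ≤ m ∧ numSq E = 2 ^ (2 * m) - 2 ^ m) := by
  induction m with
  | zero =>
    intro E _ _ _ hc
    left
    rw [numSq_of_card_two (by simpa using hc)]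
    rfl
  | succ n ih =>
    intro E _ _ h hc
    obtain ⟨x, y, hxy⟩ := exists_comm_ne_one_of_pow h hc
    have hC : ∀ {a b : E}, ⁅a, b⁆ ≠ 1 →
        Nat.card (Subgroup.centralizer ({a, b} : Set E)) = 2 ^ (2 * n + 1) :=
      fun hab => card_centralizer h hc hab
    have hpos : 2 ^ n ≤ 2 ^ (2 * n) := Nat.pow_le_pow_right (by norm_num) (by omega)
    have e1 : 2 ^ (2 * n + 1) = 2 * 2 ^ (2 * n) := by ring
    have e2 : 2 ^ (2 * (n + 1)) = 4 * 2 ^ (2 * n) := by ring
    have e3 : 2 ^ (n + 1) = 2 * 2 ^ n := by ring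
    rw [e2, e3]
    rcases dichotomy h hxy with ⟨a, b, hab, ha, hb⟩ | ⟨hx, hy⟩
    · have h1 := numSq_inv_pair h hab ha hb
      have h2 := numSq_add_numNSq (Subgroup.centralizer ({a, b} : Set E))
      rw [hC hab, e1] at h2
      rcases ih (h.centralizer hab) (hC hab) with h3 | ⟨h3, h4⟩
      · left
        omega
      · right
        omega
    · have h1 := numSq_four_pair h hxy hx hy
      have h2 := numSq_add_numNSq (Subgroup.centralizer ({x, y} : Set E))
      rw [hC hxy, e1] at h2
      rcases ih (h.centralizer hxy) (hC hxy) with h3 | ⟨h3, h4⟩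
      · right
        omega
      · left
        omega

/-- In order 8 the property `HasInvPair` is determined by the count. -/
theorem numSq_eight {E : Type*} [Group E] [Finite E] (h : CentralTwo E)
    (hc : Nat.card E = 2 ^ (2 * (0 + 1) + 1)) : (HasInvPair E → numSq E = 6) ∧
      (¬ HasInvPair E → numSq E = 2) := by
  constructor
  · rintro ⟨a, b, hab, ha, hb⟩
    have h1 := numSq_inv_pair h hab ha hb
    have h2 := numSq_add_numNSq (Subgroup.centralizer ({a, b} : Set E))
    have h3 := card_centralizer h hc hab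
    have h4 := numSq_of_card_two (by simpa using h3)
    rw [h3] at h2
    simp only [Nat.mul_zero, zero_add, pow_one] at h2
    omega
  · intro hn
    obtain ⟨x, y, hxy⟩ := exists_comm_ne_one_of_pow h hc
    rcases dichotomy h hxy with h0 | ⟨hx, hy⟩
    · exact absurd h0 hn
    · have h1 := numSq_four_pair h hxy hx hy
      have h2 := numSq_add_numNSq (Subgroup.centralizer ({x, y} : Set E))
      have h3 := card_centralizer h hc hxy
      have h4 := numSq_of_card_two (by simpa using h3)
      rw [h3] at h2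
      simp only [Nat.mul_zero, zero_add, pow_one] at h2
      omega

theorem iso_of_card (n : ℕ) : ∀ {E₁ E₂ : Type*} [Group E₁] [Group E₂] [Finite E₁] [Finite E₂],
    CentralTwo E₁ → CentralTwo E₂ → Nat.card E₁ = 2 ^ (2 * n + 1) → Nat.card E₂ = 2 ^ (2 * n + 1) →
    numSq E₁ = numSq E₂ → Nonempty (E₁ ≃* E₂) := by
  induction n with
  | zero =>
    intro E₁ E₂ _ _ _ _ _ _ hc₁ hc₂ _
    exact iso_of_card_two hc₁ hc₂
  | succ n ih =>
    intro E₁ E₂ _ _ _ _ h₁ h₂ hc₁ hc₂ hN
    by_cases hi : HasInvPair E₁ ∧ HasInvPair E₂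
    · obtain ⟨⟨x₁, y₁, hxy₁, hx₁, hy₁⟩, ⟨x₂, y₂, hxy₂, hx₂, hy₂⟩⟩ := hi
      have a1 := numSq_inv_pair h₁ hxy₁ hx₁ hy₁
      have a2 := numSq_inv_pair h₂ hxy₂ hx₂ hy₂
      have b1 := numSq_add_numNSq (Subgroup.centralizer ({x₁, y₁} : Set E₁))
      have b2 := numSq_add_numNSq (Subgroup.centralizer ({x₂, y₂} : Set E₂))
      rw [card_centralizer h₁ hc₁ hxy₁] at b1
      rw [card_centralizer h₂ hc₂ hxy₂] at b2
      obtain ⟨ψ⟩ := ih (h₁.centralizer hxy₁) (h₂.centralizer hxy₂) (card_centralizer h₁ hc₁ hxy₁)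
        (card_centralizer h₂ hc₂ hxy₂) (by omega)
      exact iso_of_pairs h₁ h₂ hxy₁ hxy₂ (by simp [hx₁, hx₂]) (by simp [hy₁, hy₂]) ψ
    · cases n with
      | succ k => exact absurd ⟨hasInvPair_of_card h₁ hc₁, hasInvPair_of_card h₂ hc₂⟩ hi
      | zero =>
        refine iso_of_card_eight h₁ h₂ hc₁ hc₂ ?_
        have k1 := numSq_eight h₁ hc₁
        have k2 := numSq_eight h₂ hc₂
        by_cases h1 : HasInvPair E₁ <;> by_cases h2 : HasInvPair E₂
        · exact iff_of_true h1 h2
        · have := k1.1 h1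
          have := k2.2 h2
          omega
        · have := k1.2 h1
          have := k2.1 h2
          omega
        · exact iff_of_false h1 h2

end Cfsg.Agent.H587.ExtraTwoCount
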